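import Cfsg.Agent.Lib.KB.Count
import Cfsg.Agent.Lib.FT.BG01
import Cfsg.Agent.Lib.H4.Van1
import Cfsg.Agent.Lib.H1.Solvable

/-!
# The class number of `Y / F(Y)` when `F(Y)` is abelian of square order
-/

set_option autoImplicit false

namespace Cfsg.Agent.KB

open Cfsg Subgroup
open scoped IsMulCommutative

universe u

theorem sm_center_dvd {N : Type*} [Group N] [Finite N] [Group.IsNilpotent N] {r : ℕ}
    (hr : r.Prime) (h3 : ¬ r ^ 3 ∣ Nat.card N) {k : ℕ} (hk : r ^ k ∣ Nat.card N) :
    r ^ k ∣ Nat.card (center N) := by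
  have := Fact.mk hr
  obtain ⟨P⟩ : Nonempty (Sylow r N) := inferInstance
  have hP := P.card_eq_multiplicity
  have hj : (Nat.card N).factorization r < 3 := by
    by_contra h
    exact h3 ((hr.pow_dvd_iff_le_factorization Nat.card_pos.ne').2 (by omega))
  have hc : IsMulCommutative (P : Subgroup N) := by
    obtain h | h | h : (Nat.card N).factorization r = 0 ∨ (Nat.card N).factorization r = 1 ∨
      (Nat.card N).factorization r = 2 := by omega
    · rw [h, pow_zero, card_eq_one] at hP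
      rw [hP]; infer_instance
    · rw [h, pow_one] at hP
      have := isCyclic_of_prime_card hP
      infer_instance
    · rw [h] at hP
      exact IsPGroup.isMulCommutative_of_card_eq_prime_sq hP
  have hn := H1.sylow_normal_of_isNilpotent P
  have h1 : centralizer ((P : Subgroup N) : Set N) = ⊤ := by
    refine H1.eq_top_of_forall_sylow_le fun q _ => ?_
    by_cases hq : q = r
    · subst hq
      exact ⟨P, (P : Subgroup N).le_centralizer⟩
    · obtain ⟨Q⟩ : Nonempty (Sylow q N) := inferInstance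
      have hQ := H1.sylow_normal_of_isNilpotent Q
      refine ⟨Q, fun x hx => mem_centralizer_iff.2 fun y hy => ?_⟩
      exact commute_of_normal_of_disjoint _ _ hn hQ
        (IsPGroup.disjoint_of_ne r q (Ne.symm hq) _ _ P.isPGroup' Q.isPGroup') y x hy hx
  have h2 : (P : Subgroup N) ≤ center N := by
    rw [← centralizer_univ, ← coe_top, ← h1]
    exact le_centralizer_iff.1 le_rfl
  refine dvd_trans ?_ (card_dvd_of_le h2)
  rw [hP]
  exact pow_dvd_pow _ ((hr.pow_dvd_iff_le_factorization Nat.card_pos.ne').1 hk)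

theorem sm_ker_conj {T : Type*} [Group T] (A : Subgroup T) [A.Normal] :
    (MulAut.conjNormal (H := A)).ker = centralizer (A : Set T) := by
  ext x
  rw [MonoidHom.mem_ker, mem_centralizer_iff]
  refine ⟨fun h y hy => ?_, fun h => ?_⟩
  · have := congrArg (fun f : MulAut A => (f ⟨y, hy⟩ : T)) h
    simp only [MulAut.conjNormal_apply, MulAut.one_apply] at this
    rw [mul_inv_eq_iff_eq_mul] at this
    exact this.symm
  · ext y
    simp only [MulAut.conjNormal_apply, MulAut.one_apply]
    rw [← h y y.2, mul_inv_cancel_right]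

theorem sm_abel27 {T : Type*} [Group T] [Finite T] (hT : Nat.card T = 3 ^ 4) :
    ∃ B : Subgroup T, IsMulCommutative B ∧ 27 ∣ Nat.card B := by
  have := Fact.mk Nat.prime_three
  have hp : IsPGroup 3 T := IsPGroup.of_card hT
  have := hp.isNilpotent
  obtain ⟨A, ⟨hA1, hA2⟩, hA3⟩ := Set.Finite.exists_maximal
    (s := {A : Subgroup T | A.Normal ∧ IsMulCommutative A}) (Set.toFinite _)
    ⟨⊥, inferInstance, inferInstance⟩
  have hc := H1.centralizer_eq_of_maximal_abelian_normal A fun M h1 h2 h3 =>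
    le_antisymm (hA3 ⟨h1, h2⟩ h3) h3
  refine ⟨A, hA2, ?_⟩
  have h1 : A.index ∣ Nat.card (MulAut A) := by
    have hk := congrArg Subgroup.index ((sm_ker_conj A).trans hc)
    rw [← hk, index_ker]
    exact card_subgroup_dvd_card _
  have h2 := A.index_mul_card
  obtain ⟨j, hj, hA⟩ := (Nat.dvd_prime_pow Nat.prime_three).1 (hT ▸ card_subgroup_dvd_card A)
  rw [hA, hT] at h2
  rw [hA]
  have h5 : Nat.card (MulAut A) ≤ (Nat.card A).factorial := by
    rw [← Nat.card_perm]
    exact Nat.card_le_card_of_injective _ MulEquiv.toEquiv_injective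
  have h6 := (Nat.le_of_dvd Nat.card_pos h1).trans h5
  rw [hA] at h6
  interval_cases j
  · simp at h2 h6; omega
  · simp [Nat.factorial] at h2 h6; omega
  · exfalso
    have h7 : A.index = 9 := by omega
    rw [h7] at h1
    by_cases hcy : IsCyclic A
    · rw [IsCyclic.card_mulAut, hA] at h1
      revert h1
      decide
    · have he := (not_isCyclic_iff_exponent_eq_prime Nat.prime_three hA).1 hcy
      rw [FT.card_mulAut_of_elem (E := A) Nat.prime_three
        (fun x => by rw [← he]; exact Monoid.pow_exponent_eq_one x) hA] at h1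
      revert h1
      decide
  · decide
  · decide

theorem sm_core {N : Type*} [Group N] [Finite N] [Group.IsNilpotent N] {M : ℕ}
    (hd : Nat.card N ∣ 3 ^ 4 * 7595)
    (hM : ∀ A : Subgroup N, IsMulCommutative A → Nat.card A ≤ M) :
    ∃ a u, a ≤ 4 ∧ u ∣ 7595 ∧ Nat.card N = 3 ^ a * u ∧ (∀ b ≤ a, b ≤ 2 → 3 ^ b * u ≤ M) ∧
      (a = 4 → 27 * u ≤ M) := by
  have := Fact.mk Nat.prime_three
  obtain ⟨k, u, hk, hu, hku⟩ := Nat.dvd_mul.1 hd
  obtain ⟨a, ha, rfl⟩ := (Nat.dvd_prime_pow Nat.prime_three).1 hk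
  have hZ : u ∣ Nat.card (center N) := by
    rw [Nat.dvd_iff_prime_pow_dvd_dvd]
    intro r k hr hk
    rcases Nat.eq_zero_or_pos k with rfl | hk0
    · simp
    have h1 : r ∣ 5 * 7 ^ 2 * 31 := ((dvd_pow_self r hk0.ne').trans hk).trans hu
    refine sm_center_dvd hr (fun h => ?_) (hk.trans (hku ▸ dvd_mul_left _ _))
    have h2 := h.trans hd
    rcases (Nat.Prime.dvd_mul hr).1 h1 with h1 | h1
    · rcases (Nat.Prime.dvd_mul hr).1 h1 with h1 | h1
      · obtain rfl := (Nat.prime_dvd_prime_iff_eq hr (by norm_num)).1 h1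
        norm_num at h2
      · obtain rfl := (Nat.prime_dvd_prime_iff_eq hr (by norm_num)).1 (hr.dvd_of_dvd_pow h1)
        norm_num at h2
    · obtain rfl := (Nat.prime_dvd_prime_iff_eq hr (by norm_num)).1 h1
      norm_num at h2
  have key : ∀ (B : Subgroup N) (b : ℕ), IsMulCommutative B → 3 ^ b ∣ Nat.card B →
      3 ^ b * u ≤ M := fun B b hB hb => by
    have hc : IsMulCommutative (B ⊔ center N : Subgroup N) := by
      rw [← le_centralizer_iff_isMulCommutative]
      refine sup_le ?_ (center_le_centralizer _)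
      rw [le_centralizer_iff]
      exact sup_le B.le_centralizer (center_le_centralizer _)
    refine (Nat.le_of_dvd Nat.card_pos ?_).trans (hM _ hc)
    refine Nat.Coprime.mul_dvd_of_dvd_of_dvd ?_ (hb.trans (card_dvd_of_le le_sup_left))
      (hZ.trans (card_dvd_of_le le_sup_right))
    exact Nat.Coprime.pow_left _ (Nat.Coprime.coprime_dvd_right hu (by norm_num))
  refine ⟨a, u, ha, hu, hku.symm, fun b hb hb2 => ?_, ?_⟩
  · obtain ⟨B, hB⟩ := Sylow.exists_subgroup_card_pow_prime 3 (G := N) (n := b)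
      ((pow_dvd_pow 3 hb).trans (hku ▸ dvd_mul_right _ _))
    refine key B b ?_ hB.symm.dvd
    interval_cases b
    · rw [pow_zero, card_eq_one] at hB
      rw [hB]; infer_instance
    · rw [pow_one] at hB
      have := isCyclic_of_prime_card hB
      infer_instance
    · exact IsPGroup.isMulCommutative_of_card_eq_prime_sq hB
  · rintro rfl
    obtain ⟨T, hT⟩ := Sylow.exists_subgroup_card_pow_prime 3 (G := N) (n := 4)
      (hku ▸ dvd_mul_right _ _)
    obtain ⟨B, hB, hB2⟩ := sm_abel27 hT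
    refine key (B.map T.subtype) 3 inferInstance ?_
    rwa [card_map_of_injective T.subtype_injective]

theorem sm_two {L V : Type*} [Group L] [Finite L] [CommGroup V] [Finite V] (hK : KBound L)
    (h2 : pCore 2 L = ⊥) (φ : L →* MulAut V) (hφ : Function.Injective φ)
    (hV : ∀ v : V, v ^ 2 = 1) {n e : ℕ} (hc : Nat.card V = 2 ^ n)
    (hn : (n = 2 ∧ e = 2) ∨ (n = 4 ∧ e = 4) ∨ (n = 6 ∧ e = 8)) : kk L * 3 ≤ 3 ^ e := by
  have := Fact.mk Nat.prime_two
  have := Fact.mk Nat.prime_three
  obtain ⟨N, hN⟩ : ∃ N, N = fittingSubgroup L := ⟨_, rfl⟩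
  have : N.Normal := hN ▸ inferInstance
  have : Group.IsNilpotent N := hN ▸ inferInstance
  have hodd : (Nat.card N).Coprime 2 := by
    rw [Nat.coprime_comm, Nat.Prime.coprime_iff_not_dvd Nat.prime_two]
    intro h
    obtain ⟨P⟩ : Nonempty (Sylow 2 N) := inferInstance
    have h3 := H1.map_subtype_pCore_le 2 N
    rw [h2, H1.pCore_eq_sylow_of_normal P (H1.sylow_normal_of_isNilpotent P), le_bot_iff,
      map_eq_bot_iff_of_injective _ N.subtype_injective] at h3
    exact P.ne_bot_of_dvd_card h h3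
  have hd : Nat.card N ∣ ∏ i ∈ Finset.range n, (2 ^ n - 2 ^ i) := by
    rw [← FT.card_mulAut_of_elem Nat.prime_two hV hc]
    exact (card_subgroup_dvd_card N).trans (card_dvd_of_injective φ hφ)
  have hM : ∀ A : Subgroup N, IsMulCommutative A → Nat.card A ≤ 2 ^ n := fun A hA => by
    obtain ⟨ψ, hψ⟩ : ∃ ψ : A →* MulAut V, ψ = φ.comp (N.subtype.comp A.subtype) := ⟨_, rfl⟩
    have hi : Function.Injective ψ := by
      rw [hψ]
      exact hφ.comp (N.subtype_injective.comp A.subtype_injective)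
    obtain ⟨w, hw⟩ := H4.exists_regular (W := V) (fun a : A => (ψ a).toMonoidHom)
      (n := Nat.card A) (fun i j w => by
        change (ψ i * ψ j) w = (ψ j * ψ i) w
        rw [← map_mul, ← map_mul, mul_comm]) (fun i w => by
        change (ψ i)^[Nat.card A] w = w
        have h1 : ∀ k, (ψ i)^[k] w = ψ (i ^ k) w := fun k => by
          induction k with
          | zero => simp
          | succ k ih => rw [Function.iterate_succ_apply', ih, pow_succ', map_mul, MulAut.mul_apply]
        rw [h1, pow_card_eq_one', map_one, MulAut.one_apply])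
      (fun w hw => by
        have h1 := orderOf_dvd_of_pow_eq_one hw
        have h2 := orderOf_dvd_of_pow_eq_one (hV w)
        exact orderOf_eq_one_iff.1 (Nat.eq_one_of_dvd_coprimes
          (Nat.Coprime.coprime_dvd_left (card_subgroup_dvd_card A) hodd) h1 h2))
    rw [← hc]
    refine Nat.card_le_card_of_injective (fun a : A => ψ a w) fun a b hab => ?_
    have h1 : ψ (b⁻¹ * a) w = w := by
      rw [map_mul, MulAut.mul_apply, show ψ a w = ψ b w from hab, ← MulAut.mul_apply, ← map_mul,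
        inv_mul_cancel, map_one, MulAut.one_apply]
    have h3 : ψ (b⁻¹ * a) = ψ 1 := by
      rw [map_one]
      exact MulEquiv.ext (hw _ h1)
    exact (inv_mul_eq_one.1 (hi h3)).symm
  have hd2 : Nat.card N ∣ 3 ^ 4 * 7595 ∧ (n = 4 → Nat.card N ∣ 315) := by
    rcases hn with ⟨rfl, -⟩ | ⟨rfl, -⟩ | ⟨rfl, -⟩
    · refine ⟨(hodd.pow_right 1).dvd_of_dvd_mul_left (hd.trans ?_), by omega⟩
      decide +kernel
    · have h3 : Nat.card N ∣ 315 := (hodd.pow_right 6).dvd_of_dvd_mul_left (hd.trans (by decide +kernel))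
      exact ⟨h3.trans (by norm_num), fun _ => h3⟩
    · refine ⟨(hodd.pow_right 15).dvd_of_dvd_mul_left (hd.trans ?_), by omega⟩
      decide +kernel
  obtain ⟨a, u, ha, hu, hau, h5, h6⟩ := sm_core hd2.1 hM
  have hg : gg (Nat.card (fittingSubgroup L)) = 9 ^ a * gg u := by
    rw [← hN, hau, gg_mul, gg_prime_pow Nat.prime_three, ← mul_pow]
    rfl
  have k0 : kk L ≤ 9 ^ a * gg u := by simpa [hg] using hK 0 chain_zero
  have k1 : 3 ^ a * u ≠ 1 → kk L * 3 ≤ 9 ^ a * gg u := fun h => by
    have := hK 1 (chain_one fun h0 => h (by rw [← hau, hN, h0, card_bot]))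
    rwa [hg] at this
  have k2 : a ≠ 0 → u ≠ 1 → kk L * 9 ≤ 9 ^ a * gg u := fun h h' => by
    obtain ⟨P⟩ : Nonempty (Sylow 3 N) := inferInstance
    have hP := H1.sylow_normal_of_isNilpotent P
    have := Sylow.characteristic_of_normal P hP
    have h7 : ((P : Subgroup N).map N.subtype) < fittingSubgroup L := by
      rw [← hN]
      refine lt_of_le_of_ne (map_subtype_le _) fun h8 => h' ?_
      obtain ⟨j, hj⟩ := IsPGroup.iff_card.1 (h8 ▸ P.isPGroup'.map N.subtype : IsPGroup 3 N)
      refine Nat.eq_one_of_dvd_coprimes (a := 3 ^ j) (b := 7595) (Nat.Coprime.pow_left _ (by norm_num))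
        ?_ hu
      rw [← hj, hau]
      exact dvd_mul_left _ _
    have := hK 2 (chain_two (fun h0 => by
      rw [map_eq_bot_iff_of_injective _ N.subtype_injective] at h0
      exact P.ne_bot_of_dvd_card (hau ▸ (dvd_pow_self 3 h).mul_right _) h0) h7)
    rwa [hg] at this
  have g5 : gg 5 = 15 := gg_prime (by norm_num)
  have g7 : gg 7 = 21 := gg_prime (by norm_num)
  have g31 : gg 31 = 93 := gg_prime (by norm_num)
  have g35 : gg 35 = 315 := by rw [show 35 = 5 * 7 from rfl, gg_mul, g5, g7]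
  have g49 : gg 49 = 441 := by rw [show 49 = 7 * 7 from rfl, gg_mul, g7]
  have h70 := h5 0 (Nat.zero_le _) (by norm_num)
  have hu64 : u ≤ 64 := by rcases hn with ⟨rfl, -⟩ | ⟨rfl, -⟩ | ⟨rfl, -⟩ <;> omega
  have hu' : u = 1 ∨ u = 5 ∨ u = 7 ∨ u = 31 ∨ u = 35 ∨ u = 49 := by
    clear * - hu hu64
    interval_cases u <;> simp_all
  have h71 := fun h => h5 1 h (by norm_num)
  have h72 := fun h => h5 2 h (by norm_num)
  have h8 : n = 4 → a ≤ 2 := fun h => by
    by_contra h9
    have := ((pow_dvd_pow 3 (show 3 ≤ a by omega)).mul_right u).trans (hau ▸ hd2.2 h)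
    norm_num at this
  clear h5 hd2 hg hM hd hau hc hu
  rcases hn with ⟨rfl, rfl⟩ | ⟨rfl, rfl⟩ | ⟨rfl, rfl⟩ <;> interval_cases a <;>
    rcases hu' with rfl | rfl | rfl | rfl | rfl | rfl <;>
    simp only [gg_one, g5, g7, g31, g35, g49] at k0 k1 k2 <;> omega

theorem sm_nine {H V : Type*} [Group H] [Finite H] [CommGroup V] [Finite V]
    (φ : H →* MulAut V) (hφ : Function.Injective φ) (hV : ∀ v : V, v ^ 3 = 1)
    (hc : Nat.card V = 3 ^ 2) : kk H ≤ 9 := by
  classical
  have := Fact.mk Nat.prime_three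
  have := Fintype.ofFinite H
  have := Fintype.ofFinite V
  obtain ⟨S, hS⟩ : ∃ S : H → Prop, ∀ x, S x ↔ ∀ v, φ x v ∈ zpowers v := ⟨_, fun _ => Iff.rfl⟩
  have h1 : ∀ x, ¬ S x → Nat.card (centralizer ({x} : Set H)) ≤ 8 := fun x hx => by
    rw [hS, not_forall] at hx
    obtain ⟨v, hv⟩ := hx
    have hv1 : v ≠ 1 := by
      rintro rfl
      exact hv (by simp)
    have h8 : Nat.card {w : V // w ≠ 1} = 8 := by
      rw [Nat.card_eq_fintype_card, Fintype.card_subtype_compl, ← Nat.card_eq_fintype_card, hc]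
      simp
    rw [← h8]
    refine Nat.card_le_card_of_injective
      (fun c => ⟨φ c v, fun h => hv1 ((φ c).map_eq_one_iff.1 h)⟩) fun c d hcd => ?_
    have h2 : φ c v = φ d v := congrArg Subtype.val hcd
    have h3 : φ (d⁻¹ * c : centralizer ({x} : Set H)) v = v := by
      rw [coe_mul, map_mul, MulAut.mul_apply, h2, ← MulAut.mul_apply, ← map_mul, coe_inv,
        inv_mul_cancel, map_one, MulAut.one_apply]
    obtain ⟨e, he⟩ : ∃ e, e = d⁻¹ * c := ⟨_, rfl⟩
    rw [← he] at h3
    have h4 : φ e (φ x v) = φ x v := by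
      rw [← MulAut.mul_apply, ← map_mul, mem_centralizer_singleton_iff.1 e.2, map_mul,
        MulAut.mul_apply, h3]
    obtain ⟨K, hK⟩ : ∃ K : Subgroup V, ∀ w, w ∈ K ↔ φ e w = w :=
      ⟨(φ e).toMonoidHom.eqLocus (MonoidHom.id V), fun _ => Iff.rfl⟩
    have h5 : zpowers v < K :=
      lt_of_le_of_ne (zpowers_le.2 ((hK v).2 h3)) fun h => hv (h ▸ (hK _).2 h4)
    have h6 : Nat.card (zpowers v) < Nat.card K :=
      lt_of_le_of_ne (card_le_of_le h5.le) fun h => h5.ne (eq_of_le_of_card_ge h5.le h.ge)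
    rw [Nat.card_zpowers, orderOf_eq_prime (hV v) hv1] at h6
    obtain ⟨j, hj, hj2⟩ := (Nat.dvd_prime_pow Nat.prime_three).1 (hc ▸ card_subgroup_dvd_card K)
    have h7 : K = ⊤ := by
      refine eq_top_of_card_eq K ?_
      rw [hc, hj2]
      rw [hj2] at h6
      interval_cases j <;> simp_all
    have h9 : φ e = φ 1 := by
      rw [map_one]
      exact MulEquiv.ext fun w => (hK w).1 (h7 ▸ mem_top w)
    have h10 : e = 1 := Subtype.ext (hφ h9)
    rw [he] at h10
    exact (inv_mul_eq_one.1 h10).symm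
  have h2 : ∀ x, S x → φ x = 1 ∨ φ x = MulEquiv.inv V := fun x hx => by
    have h3 : ∀ v, φ x v = v ∨ φ x v = v⁻¹ := fun v => by
      obtain ⟨k, hk⟩ := mem_zpowers_iff.1 ((hS x).1 hx v)
      rw [zpow_eq_zpow_emod k (n := 3) (by exact_mod_cast hV v)] at hk
      obtain h | h | h : k % 3 = 0 ∨ k % 3 = 1 ∨ k % 3 = 2 := by omega
      · rw [h, zpow_zero, eq_comm, (φ x).map_eq_one_iff] at hk
        simp [hk]
      · rw [h, zpow_one] at hk
        exact Or.inl hk.symm
      · refine Or.inr ?_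
        rw [← hk, h, eq_inv_iff_mul_eq_one, ← hV v, zpow_two, pow_three, mul_assoc]
    by_contra h
    rw [not_or, MulEquiv.ext_iff, MulEquiv.ext_iff, not_forall, not_forall] at h
    obtain ⟨⟨v, hv⟩, w, hw⟩ := h
    have hv' : φ x v ≠ v := hv
    have hw' : φ x w ≠ w⁻¹ := hw
    have h4 := (h3 v).resolve_left hv'
    have h5 := (h3 w).resolve_right hw'
    rcases h3 (v * w) with h6 | h6
    · rw [map_mul, h5, mul_left_inj] at h6
      exact hv' h6
    · rw [map_mul, h4, mul_inv, mul_right_inj] at h6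
      exact hw' h6
  have h3 : (Finset.univ.filter S).card ≤ 2 := by
    refine (Finset.card_le_card_of_injOn φ (t := {1, MulEquiv.inv V}) (fun x hx => ?_)
      hφ.injOn).trans Finset.card_le_two
    simpa using h2 x (by simpa using hx)
  have h4 : 0 < (Finset.univ.filter S).card :=
    Finset.card_pos.2 ⟨1, by simp [hS]⟩
  have h5 := Finset.card_filter_add_card_filter_not (s := Finset.univ) S
  rw [Finset.card_univ, ← Nat.card_eq_fintype_card] at h5
  have h6 := H4.sum_card_centralizer H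
  rw [← Finset.sum_filter_add_sum_filter_not Finset.univ S] at h6
  have h7 := Finset.sum_le_card_nsmul (Finset.univ.filter S)
    (fun g => Nat.card (centralizer ({g} : Set H))) (Nat.card H) fun x _ => card_le_card_group _
  have h8 := Finset.sum_le_card_nsmul (Finset.univ.filter fun x => ¬ S x)
    (fun g => Nat.card (centralizer ({g} : Set H))) 8 fun x hx => h1 x (by simpa using hx)
  rw [smul_eq_mul] at h7 h8
  have h9 := Nat.mul_le_mul_right (Nat.card H) h3
  by_contra h
  have h10 : 10 * Nat.card H ≤ kk H * Nat.card H := Nat.mul_le_mul_right _ (by omega)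
  have h11 := (Nat.add_le_add h7 h8).trans' h6.ge
  unfold kk at h10
  omega

theorem sm_six {L V : Type*} [Group L] [Finite L] [CommGroup V] [Finite V]
    (φ : L →* MulAut V) (hφ : Function.Injective φ) (hV : ∀ v : V, v ^ 3 ^ 2 = 1 → v ^ 3 = 1)
    (hc : Nat.card V = 6 ^ 2) : kk L ≤ 24 * 9 := by
  have := Fact.mk Nat.prime_two
  have := Fact.mk Nat.prime_three
  obtain ⟨P⟩ : Nonempty (Sylow 2 V) := inferInstance
  obtain ⟨Q⟩ : Nonempty (Sylow 3 V) := inferInstance
  have := Sylow.characteristic_of_normal P inferInstance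
  have := Sylow.characteristic_of_normal Q inferInstance
  have hP : Nat.card (P : Subgroup V) = 4 := by
    rw [P.card_eq_multiplicity, hc]
    decide +kernel
  have hQ : Nat.card (Q : Subgroup V) = 3 ^ 2 := by
    rw [Q.card_eq_multiplicity, hc]
    decide +kernel
  obtain ⟨ψ, hψ⟩ : ∃ ψ, ψ = (MulAut.characteristic (Q : Subgroup V)).comp φ := ⟨_, rfl⟩
  refine (kk_le_ker_mul ψ.rangeRestrict ψ.rangeRestrict_surjective).trans (Nat.mul_le_mul ?_ ?_)
  · refine kk_le_card.trans ?_
    have h5 : Nat.card (MulAut (P : Subgroup V)) ≤ (Nat.card (P : Subgroup V)).factorial := by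
      rw [← Nat.card_perm]
      exact Nat.card_le_card_of_injective _ MulEquiv.toEquiv_injective
    rw [hP] at h5
    refine le_trans ?_ h5
    refine Nat.card_le_card_of_injective (((MulAut.characteristic (P : Subgroup V)).comp φ).comp
      ψ.rangeRestrict.ker.subtype) ((injective_iff_map_eq_one _).2 fun x hx => ?_)
    have h1 : ((MulAut.characteristic (Q : Subgroup V)).comp φ) x = 1 :=
      (DFunLike.congr_fun hψ (x : L)).symm.trans (congrArg Subtype.val (MonoidHom.mem_ker.1 x.2))
    obtain ⟨K, hK⟩ : ∃ K : Subgroup V, ∀ w, w ∈ K ↔ φ x w = w :=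
      ⟨(φ x).toMonoidHom.eqLocus (MonoidHom.id V), fun _ => Iff.rfl⟩
    have h2 : (P : Subgroup V) ≤ K := fun w hw =>
      (hK w).2 (congrArg (fun f : MulAut (P : Subgroup V) => (f ⟨w, hw⟩ : V)) hx)
    have h3 : (Q : Subgroup V) ≤ K := fun w hw =>
      (hK w).2 (congrArg (fun f : MulAut (Q : Subgroup V) => (f ⟨w, hw⟩ : V)) h1)
    have h4 : K = ⊤ := by
      refine eq_top_of_card_eq K (Nat.dvd_antisymm (card_subgroup_dvd_card K) ?_)
      rw [hc]
      exact Nat.Coprime.mul_dvd_of_dvd_of_dvd (m := 4) (n := 3 ^ 2) (by norm_num)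
        (hP ▸ card_dvd_of_le h2) (hQ ▸ card_dvd_of_le h3)
    refine Subtype.ext (hφ ?_)
    rw [coe_one, map_one]
    exact MulEquiv.ext fun w => (hK w).1 (h4 ▸ mem_top w)
  · refine sm_nine ψ.range.subtype ψ.range.subtype_injective (fun v => Subtype.ext (hV _ ?_)) hQ
    rw [← hQ, ← coe_pow, pow_card_eq_one', coe_one]

theorem sm_gg {e : ℕ} (h0 : e ≠ 0) (h1 : e ≠ 1) (h2 : e ≠ 2) (h3 : e ≠ 3) (h4 : e ≠ 4) (h6 : e ≠ 6)
    (h8 : e ≠ 8) : gg (e ^ 2) ≤ 3 ^ e := by
  rw [sq, gg_mul]
  rcases Nat.lt_or_ge e 15 with h | h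
  · have g2 : gg 2 = 6 := gg_prime (by norm_num)
    have g3 : gg 3 = 9 := gg_prime (by norm_num)
    have g5 : gg 5 = 15 := gg_prime (by norm_num)
    have g7 : gg 7 = 21 := gg_prime (by norm_num)
    have g11 : gg 11 = 33 := gg_prime (by norm_num)
    have g13 : gg 13 = 39 := gg_prime (by norm_num)
    have g9 : gg 9 = 81 := by rw [show 9 = 3 * 3 from rfl, gg_mul, g3]
    have g10 : gg 10 = 90 := by rw [show 10 = 2 * 5 from rfl, gg_mul, g2, g5]
    have g12 : gg 12 = 324 := by rw [show 12 = 2 * 2 * 3 from rfl, gg_mul, gg_mul, g2, g3]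
    have g14 : gg 14 = 126 := by rw [show 14 = 2 * 7 from rfl, gg_mul, g2, g7]
    interval_cases e <;> simp_all
  · have k1 : 2 ^ ArithmeticFunction.cardFactors e ≤ e := by
      rw [ArithmeticFunction.cardFactors_apply]
      conv_rhs => rw [← Nat.prod_primeFactorsList h0]
      exact List.pow_card_le_prod _ _ fun p hp => (Nat.prime_of_mem_primeFactorsList hp).two_le
    have k2 : 3 ^ ArithmeticFunction.cardFactors e ≤ e ^ 2 := by
      refine le_trans ?_ (Nat.pow_le_pow_left k1 2)
      rw [← pow_mul, mul_comm, pow_mul]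
      exact Nat.pow_le_pow_left (by norm_num) _
    have k3 : gg e ≤ e ^ 3 := by
      rw [gg, pow_succ e 2]
      exact Nat.mul_le_mul_right _ k2
    refine (Nat.mul_le_mul k3 k3).trans ?_
    rw [← pow_add]
    clear * - h
    induction e, h using Nat.le_induction with
    | base => norm_num
    | succ n hn ih =>
      have k4 : (n + 1) ^ 6 * 15 ^ 6 ≤ n ^ 6 * 16 ^ 6 := by
        rw [← mul_pow, ← mul_pow]
        exact Nat.pow_le_pow_left (by omega) _
      rw [pow_succ 3 n]
      norm_num at k4 ih ⊢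
      omega

theorem small {Y : Type u} [Group Y] [Finite Y] (hs : Group.IsSolvable Y)
    (ih : IH.{u} (Nat.card Y + 1)) (hab : IsMulCommutative (fittingSubgroup Y)) {e : ℕ}
    (he : Nat.card (fittingSubgroup Y) = e ^ 2)
    (hexp : ∀ r : ℕ, ∀ x ∈ fittingSubgroup Y, x ^ r ^ 2 = 1 → x ^ r = 1) :
    kk (Y ⧸ fittingSubgroup Y) * 3 ≤ 3 ^ e := by
  have := Fact.mk Nat.prime_two
  have hk : fittingSubgroup Y = (MulAut.conjNormal (H := fittingSubgroup Y)).ker := by
    rw [sm_ker_conj]
    exact le_antisymm (fittingSubgroup Y).le_centralizer H2.centralizer_fitting_le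
  have hφ := (QuotientGroup.injective_lift_iff _ _ hk.le).2 hk
  have hexp' : ∀ r k : ℕ, ∀ x : fittingSubgroup Y, x ^ r ^ (k + 1) = 1 → x ^ r = 1 := by
    intro r k
    induction k with
    | zero => intro x hx; simpa using hx
    | succ k ih =>
      intro x hx
      refine ih x ?_
      rw [pow_succ, pow_mul]
      refine Subtype.ext (hexp r _ (x ^ r ^ k).2 ?_)
      rw [← coe_pow, ← pow_mul, ← pow_add, hx, coe_one]
  have h0 : e ≠ 0 := by
    rintro rfl
    exact Nat.card_pos.ne' he
  by_cases h1 : e = 1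
  · subst h1
    have h2 : fittingSubgroup Y = ⊤ := by
      refine top_le_iff.1 (le_trans ?_ H2.centralizer_fitting_le)
      rw [one_pow, card_eq_one] at he
      rw [he]
      exact fun x _ => mem_centralizer_iff.2 fun y hy => by rw [mem_bot.1 hy, one_mul, mul_one]
    have h3 : kk (Y ⧸ fittingSubgroup Y) ≤ 1 := kk_le_card.trans (by
      rw [← index_eq_card, h2, index_top])
    omega
  by_cases h248 : e = 2 ∨ e = 4 ∨ e = 8
  · obtain ⟨n, hn, hc⟩ : ∃ n, ((n + 1 = 2 ∧ e = 2) ∨ (n + 1 = 4 ∧ e = 4) ∨ (n + 1 = 6 ∧ e = 8)) ∧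
        Nat.card (fittingSubgroup Y) = 2 ^ (n + 1) := by
      rcases h248 with rfl | rfl | rfl
      · exact ⟨1, by simp, he⟩
      · exact ⟨3, by simp, he⟩
      · exact ⟨5, by simp, he⟩
    refine sm_two (ih _ inferInstance (Nat.lt_succ_of_le ?_)) ?_ _ hφ
      (fun v => hexp' 2 n v (by rw [← hc, pow_card_eq_one'])) hc hn
    · exact Nat.card_le_card_of_surjective _ QuotientGroup.mk_surjective
    · have h2 : IsPGroup 2 ((pCore 2 (Y ⧸ fittingSubgroup Y)).comap
          (QuotientGroup.mk' (fittingSubgroup Y))) :=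
        (H1.pCore_isPGroup 2 _).comap_of_ker_isPGroup _ (by
          rw [QuotientGroup.ker_mk']; exact IsPGroup.of_card hc)
      have h3 := (H1.le_pCore inferInstance h2).trans (H1.pCore_le_fittingSubgroup 2)
      rw [← map_comap_eq_self_of_surjective (QuotientGroup.mk'_surjective (fittingSubgroup Y))
        (pCore 2 _), Subgroup.map_eq_bot_iff, QuotientGroup.ker_mk']
      exact h3
  by_cases h3 : e = 3
  · subst h3
    have := sm_nine _ hφ (fun v => hexp' 3 1 v (by rw [← he, pow_card_eq_one'])) he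
    omega
  by_cases h6 : e = 6
  · subst h6
    have := sm_six _ hφ (fun v => hexp' 3 1 v) he
    omega
  have h7 := ih Y hs (Nat.lt_succ_self _) 1 (chain_one fun h => h1 (by
    rw [h, card_bot, eq_comm] at he
    simpa using he))
  rw [he, pow_one] at h7
  refine (Nat.mul_le_mul_right _ (kk_le_of_surjective _
    (QuotientGroup.mk'_surjective (fittingSubgroup Y)))).trans (h7.trans ?_)
  exact sm_gg h0 h1 (by omega) h3 (by omega) h6 (by omega)

end Cfsg.Agent.KB
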