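import Cfsg.Agent.Lib.KB.Count
import Cfsg.Agent.Lib.H3.Equiv

/-!
# Solvable groups all of whose abelian normal subgroups are cyclic
-/

set_option autoImplicit false

namespace Cfsg.Agent.KB

open Cfsg Subgroup
open scoped commutatorElement

theorem exists_inj_units (A : Type*) [Group A] [Finite A] [IsCyclic A] :
    ∃ l : A →* ℂˣ, Function.Injective l := by
  have : NeZero (Nat.card A) := ⟨Nat.card_pos.ne'⟩
  have e : A ≃* rootsOfUnity (Nat.card A) ℂ := mulEquivOfCyclicCardEq
    (Complex.card_rootsOfUnity _).symm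
  exact ⟨(rootsOfUnity (Nat.card A) ℂ).subtype.comp e.toMonoidHom,
    (subtype_injective _).comp e.injective⟩

section

variable {M : Type*} [Group M] [Finite M] {A U V : Subgroup M}

omit [Finite M] in
theorem comm_mul_right {x y z : M} (h : Commute ⁅x, z⁆ y) : ⁅x, y * z⁆ = ⁅x, y⁆ * ⁅x, z⁆ := by
  have : ⁅x, y * z⁆ = ⁅x, y⁆ * (y * ⁅x, z⁆ * y⁻¹) := by simp only [commutatorElement_def]; group
  rw [this, ← h.eq, mul_inv_cancel_right]

omit [Finite M] in
theorem comm_mul_left {x y z : M} (h : Commute ⁅y, z⁆ x) : ⁅x * y, z⁆ = ⁅y, z⁆ * ⁅x, z⁆ := by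
  have : ⁅x * y, z⁆ = (x * ⁅y, z⁆ * x⁻¹) * ⁅x, z⁆ := by simp only [commutatorElement_def]; group
  rw [this, ← h.eq, mul_inv_cancel_right]

omit [Finite M] in
theorem comm_pow_left' {x z : M} (h : Commute ⁅x, z⁆ x) (n : ℕ) : ⁅x ^ n, z⁆ = ⁅x, z⁆ ^ n := by
  induction n with
  | zero => simp
  | succ n ih => rw [pow_succ, comm_mul_left (h.pow_right n), ih, pow_succ']

omit [Finite M] in
theorem comm_pow_right' {x z : M} (h : Commute ⁅x, z⁆ z) (n : ℕ) : ⁅x, z ^ n⁆ = ⁅x, z⁆ ^ n := by
  induction n with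
  | zero => simp
  | succ n ih => rw [pow_succ, comm_mul_right (h.pow_right n), ih, pow_succ]

/-- the commutator pairing into a cyclic group -/
theorem pair_le [IsCyclic A] (hVU : ⁅V, U⁆ ≤ A) (hU : U ≤ centralizer (A : Set M))
    (hV : V ≤ centralizer (A : Set M)) {B : Subgroup M} [(B.subgroupOf U).Normal]
    (hAV : B ≤ centralizer (V : Set M)) :
    (centralizer (U : Set M)).relIndex V ≤ B.relIndex U := by
  obtain ⟨l, hl⟩ := exists_inj_units A
  have hc : ∀ (v : V) (u : U), ⁅(v : M), (u : M)⁆ ∈ A := fun v u =>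
    hVU (commutator_mem_commutator v.2 u.2)
  obtain ⟨f, hf⟩ : ∃ f : V → U →* ℂˣ, ∀ v u, f v u = l ⟨_, hc v u⟩ :=
    ⟨fun v => MonoidHom.mk' (fun u => l ⟨_, hc v u⟩) fun a b => by
      rw [← map_mul]
      exact congrArg l (Subtype.ext (comm_mul_right
        (mem_centralizer_iff.1 (hU a.2) _ (hc v b)))), fun _ _ => rfl⟩
  obtain ⟨Ψ, hΨ⟩ : ∃ Ψ : V →* ((U ⧸ B.subgroupOf U) →* ℂˣ), ∀ (v : V) (u : U), Ψ v u = f v u :=
    ⟨MonoidHom.mk' (fun v => QuotientGroup.lift _ (f v) fun u hu => by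
      rw [MonoidHom.mem_ker, hf, ← map_one l]
      exact congrArg l (Subtype.ext (commutatorElement_eq_one_iff_mul_comm.2
        (mem_centralizer_iff.1 (hAV hu) _ v.2)))) fun a b => by
      ext u
      change ((f (a * b) u : ℂˣ) : ℂ) = (f a u * f b u : ℂˣ)
      rw [hf, hf, hf, mul_comm, ← map_mul]
      exact congrArg (fun t => ((l t : ℂˣ) : ℂ)) (Subtype.ext (comm_mul_left
        (mem_centralizer_iff.1 (hV a.2) _ (hc b u)))), fun _ _ => rfl⟩
  have hker : Ψ.ker = (centralizer (U : Set M)).subgroupOf V := by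
    ext v
    rw [MonoidHom.mem_ker, mem_subgroupOf, mem_centralizer_iff]
    constructor
    · intro h u hu
      have h1 := hΨ v ⟨u, hu⟩
      rw [h, hf, MonoidHom.one_apply, ← map_one l] at h1
      exact (commutatorElement_eq_one_iff_mul_comm.1 (congrArg Subtype.val (hl h1)).symm).symm
    · intro h
      ext u
      change ((Ψ v u : ℂˣ) : ℂ) = (1 : ℂˣ)
      rw [hΨ, hf, ← map_one l]
      exact congrArg (fun t => ((l t : ℂˣ) : ℂ)) (Subtype.ext
        (commutatorElement_eq_one_iff_mul_comm.2 (h u u.2).symm))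
  have h1 := H3.card_monoidHom_units (U ⧸ B.subgroupOf U)
  have : Finite ((U ⧸ B.subgroupOf U) →* ℂˣ) :=
    Nat.finite_of_card_ne_zero (h1 ▸ index_ne_zero_of_finite)
  rw [relIndex, ← hker, index_ker]
  exact (card_le_card_group _).trans (h1 ▸ Nat.le_of_dvd Nat.card_pos (index_dvd_card _))

end

/-- `A` is a maximal abelian normal subgroup, `C = C_M(A)`, `E / A = F(C / A)`, and `I` is a
maximal abelian subgroup of `E`. -/
theorem exists_sym {M : Type*} [Group M] [Finite M]
    (hcyc : ∀ A : Subgroup M, A.Normal → IsMulCommutative A → IsCyclic A) :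
    ∃ (A I E : Subgroup M) (_ : A.Normal) (_ : E.Normal), IsMulCommutative I ∧ A ≤ I ∧ I ≤ E ∧
      E ≤ centralizer (A : Set M) ∧ ⁅E, E⁆ ≤ A ∧ E ⊓ centralizer (I : Set M) ≤ I ∧
      E ⊓ centralizer (E : Set M) ≤ A ∧ A.relIndex E = I.relIndex E ^ 2 ∧
      (∀ r : ℕ, ∀ x ∈ E, x ^ r ^ 2 ∈ A → x ^ r ∈ A) ∧
      fittingSubgroup ((centralizer (A : Set M)).map (QuotientGroup.mk' A)) =
        (E.map (QuotientGroup.mk' A)).subgroupOf _ := by
  obtain ⟨A, -, hAm⟩ := Finite.exists_le_maximal
    (p := fun A : Subgroup M => A.Normal ∧ IsMulCommutative A) (a := ⊥)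
    ⟨inferInstance, inferInstance⟩
  obtain ⟨hA, hAc⟩ := hAm.1
  have := hcyc A hA hAc
  have hAC : A ≤ centralizer (A : Set M) := le_centralizer A
  -- normal subgroups meet their centralizers inside `A`
  have hmax : ∀ U : Subgroup M, U.Normal → A ≤ U → U ≤ centralizer (A : Set M) →
      U ⊓ centralizer (U : Set M) ≤ A := fun U hU h1 h2 =>
    hAm.2 ⟨inferInstance, le_centralizer_iff_isMulCommutative.1
      (inf_le_right.trans (centralizer_le inf_le_left))⟩ (le_inf h1 (le_centralizer_iff.1 h2))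
  set π := QuotientGroup.mk' A with hπ
  have hone : ∀ x, π x = 1 ↔ x ∈ A := fun x => QuotientGroup.eq_one_iff x
  set E := centralizer (A : Set M) ⊓ (fittingSubgroup (M ⧸ A)).comap π with hE
  have hEC : E ≤ centralizer (A : Set M) := inf_le_left
  have hAE : A ≤ E := le_inf hAC fun a ha => by
    rw [mem_comap, (hone a).2 ha]; exact one_mem _
  have hEn : (E.map π).Normal := Normal.map inferInstance _ (QuotientGroup.mk'_surjective A)
  have hnil : Group.IsNilpotent (E.map π) :=
    H1.isNilpotent_of_le (L := fittingSubgroup (M ⧸ A)) (map_le_iff_le_comap.2 inf_le_right)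
  set Z := E ⊓ (centralizer (E.map π : Set (M ⧸ A))).comap π with hZ
  have hZE : Z ≤ E := inf_le_left
  have hAZ : A ≤ Z := le_inf hAE fun a ha => by
    rw [mem_comap, (hone a).2 ha]; exact one_mem _
  have hEZ : ⁅E, Z⁆ ≤ A := by
    rw [commutator_le]
    intro x hx z hz
    rw [← hone, map_commutatorElement, commutatorElement_eq_one_iff_mul_comm]
    exact mem_centralizer_iff.1 hz.2 _ (mem_map_of_mem π hx)
  have hD : E ⊓ centralizer (Z : Set M) ≤ A := by
    rw [← QuotientGroup.ker_mk' A, ← Subgroup.map_eq_bot_iff]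
    by_contra h
    have : ((E ⊓ centralizer (Z : Set M)).map π).Normal :=
      Normal.map inferInstance _ (QuotientGroup.mk'_surjective A)
    refine H1.inf_centralizer_ne_bot_of_isNilpotent (P := E.map π) (S := E.map π) le_rfl
      (map_mono inf_le_left) le_normalizer_of_normal h (eq_bot_iff.2 ?_)
    rintro _ ⟨⟨d, hd, rfl⟩, h2⟩
    exact (hone d).2 (hmax Z inferInstance hAZ (hZE.trans hEC) ⟨⟨hd.1, h2⟩, hd.2⟩)
  have hle : ∀ U V : Subgroup M, V ⊓ centralizer (U : Set M) ≤ A →
      A.relIndex V ≤ (centralizer (U : Set M)).relIndex V := fun U V h => by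
    rw [← inf_relIndex_right (centralizer (U : Set M)) V]
    exact relIndex_le_of_le_left (inf_comm V _ ▸ h)
      (index_ne_zero_of_finite (H := Subgroup.subgroupOf _ V))
  have hEZ' : E ≤ Z := by
    have h1 := (hle Z E hD).trans (pair_le hEZ (hZE.trans hEC) hEC (le_centralizer_iff.1 hEC))
    rw [← relIndex_mul_relIndex A Z E hAZ hZE] at h1
    have h2 : 0 < A.relIndex Z :=
      Nat.pos_of_ne_zero (index_ne_zero_of_finite (H := A.subgroupOf Z))
    have h3 : Z.relIndex E ≠ 0 := index_ne_zero_of_finite (H := Z.subgroupOf E)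
    refine relIndex_eq_one.1 (le_antisymm ?_ (Nat.pos_of_ne_zero h3))
    exact Nat.le_of_mul_le_mul_left (by rwa [mul_one]) h2
  have hEE : ⁅E, E⁆ ≤ A := (commutator_mono le_rfl hEZ').trans hEZ
  have hZA := hmax E inferInstance hAE hEC
  have hcm : ∀ x ∈ E, ∀ y ∈ E, ∀ z ∈ E, Commute ⁅x, y⁆ z := fun x hx y hy z hz =>
    mem_centralizer_iff.1 (hEC hz) _ (hEE (commutator_mem_commutator hx hy))
  obtain ⟨I, hAI, hIm⟩ := Finite.exists_le_maximal
    (p := fun I : Subgroup M => I ≤ E ∧ IsMulCommutative I) (a := A) ⟨hAE, hAc⟩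
  obtain ⟨hIE, hIc⟩ := hIm.1
  have hEI : E ⊓ centralizer (I : Set M) ≤ I := by
    intro x hx
    have h1 : I ⊔ zpowers x ≤ centralizer (I : Set M) :=
      sup_le (le_centralizer I) (zpowers_le.2 hx.2)
    have h2 : I ⊔ zpowers x ≤ centralizer {x} :=
      sup_le (fun y hy => mem_centralizer_singleton_iff.2 (mem_centralizer_iff.1 hx.2 y hy))
        (zpowers_le.2 (mem_centralizer_singleton_iff.2 rfl))
    refine hIm.2 (y := I ⊔ zpowers x) ⟨sup_le hIE (zpowers_le.2 hx.1),
      le_centralizer_iff_isMulCommutative.1 ?_⟩ le_sup_left (mem_sup_right (mem_zpowers x))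
    refine sup_le (le_centralizer_iff.1 h1) (zpowers_le.2 (mem_centralizer_iff.2 fun y hy => ?_))
    exact mem_centralizer_singleton_iff.1 (h2 hy)
  refine ⟨A, I, E, hA, inferInstance, hIc, hAI, hIE, hEC, hEE, hEI, hZA, ?_, ?_, ?_⟩
  · have h1 : I.relIndex E ≤ A.relIndex I := by
      refine le_trans ?_ (pair_le ((commutator_mono le_rfl hIE).trans hEE) (hIE.trans hEC) hEC
        (le_centralizer_iff.1 hEC))
      rw [← inf_relIndex_right (centralizer (I : Set M)) E]
      exact relIndex_le_of_le_left (inf_comm E _ ▸ hEI)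
        (index_ne_zero_of_finite (H := Subgroup.subgroupOf _ E))
    have h2 : A.relIndex I ≤ I.relIndex E := by
      have : (I.subgroupOf E).Normal := by
        rw [normal_subgroupOf_iff hIE]
        intro i x hi hx
        have : x * i * x⁻¹ = ⁅x, i⁆ * i := by rw [commutatorElement_def]; group
        rw [this]
        exact I.mul_mem (hAI (hEE (commutator_mem_commutator hx (hIE hi)))) hi
      exact (hle E I ((inf_le_inf_right _ hIE).trans hZA)).trans
        (pair_le ((commutator_mono hIE le_rfl).trans hEE) hEC (hIE.trans hEC) (le_centralizer I))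
    rw [← relIndex_mul_relIndex A I E hAI hIE, le_antisymm h2 h1, sq]
  · intro r x hx hxr
    let U : Subgroup M := closure {z | ∃ y ∈ E, y ^ r ^ 2 ∈ A ∧ z = y ^ r}
    have hUn : U.Normal := by
      refine ⟨fun u hu g => ?_⟩
      induction hu using closure_induction with
      | mem z hz =>
        obtain ⟨y, hy, h1, rfl⟩ := hz
        refine subset_closure ⟨g * y * g⁻¹, (inferInstance : E.Normal).conj_mem _ hy g, ?_, ?_⟩
        · rw [conj_pow]; exact hA.conj_mem _ h1 g
        · rw [conj_pow]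
      | one => simp
      | mul a b _ _ ha hb =>
        have : g * (a * b) * g⁻¹ = g * a * g⁻¹ * (g * b * g⁻¹) := by group
        rw [this]; exact U.mul_mem ha hb
      | inv a _ ha =>
        have : g * a⁻¹ * g⁻¹ = (g * a * g⁻¹)⁻¹ := by group
        rw [this]; exact U.inv_mem ha
    have hUE : U ≤ E := (closure_le _).2 (by
      rintro _ ⟨y, hy, -, rfl⟩; exact E.pow_mem hy r)
    have hUU : U ≤ centralizer (U : Set M) := by
      refine (closure_le _).2 ?_
      rintro _ ⟨y, hy, h1, rfl⟩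
      rw [centralizer_closure]
      rintro _ ⟨z, hz, h2, rfl⟩
      rw [← commutatorElement_eq_one_iff_mul_comm,
        comm_pow_right' (hcm _ (E.pow_mem hz r) _ hy _ hy), comm_pow_left' (hcm _ hz _ hy _ hz),
        ← pow_mul, ← sq, ← comm_pow_left' (hcm _ hz _ hy _ hz),
        commutatorElement_eq_one_iff_mul_comm]
      exact mem_centralizer_iff.1 (hEC hy) _ h2
    have h1 : A ⊔ U ≤ centralizer ((A ⊔ U : Subgroup M) : Set M) := by
      have h2 : A ⊔ U ≤ centralizer (A : Set M) := sup_le hAC (hUE.trans hEC)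
      have h3 : A ⊔ U ≤ centralizer (U : Set M) :=
        sup_le (le_centralizer_iff.1 (hUE.trans hEC)) hUU
      exact sup_le (le_centralizer_iff.1 h2) (le_centralizer_iff.1 h3)
    exact hAm.2 (y := A ⊔ U) ⟨inferInstance, le_centralizer_iff_isMulCommutative.1 h1⟩ le_sup_left
      (mem_sup_right (subset_closure ⟨x, hx, hxr, rfl⟩))
  · have : ((centralizer (A : Set M)).map π).Normal :=
      Normal.map inferInstance _ (QuotientGroup.mk'_surjective A)
    apply map_injective ((centralizer (A : Set M)).map π).subtype_injective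
    rw [H1.map_subtype_fittingSubgroup_eq, subgroupOf_map_subtype]
    refine le_antisymm ?_ (inf_le_inf_right _ (map_le_iff_le_comap.2 inf_le_right))
    rintro _ ⟨h1, c, hc, rfl⟩
    exact ⟨⟨c, ⟨hc, h1⟩, rfl⟩, c, hc, rfl⟩

end Cfsg.Agent.KB
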