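import Cfsg.Agent.Lib.KB.Dim
import Cfsg.Agent.Lib.KB.Sym
import Cfsg.Agent.Lib.KB.Small
import Cfsg.Agent.S4958

/-!
# Case C2: all abelian normal subgroups of `X / W` are semiregular
-/

set_option autoImplicit false

namespace Cfsg.Agent.KB

open Cfsg Subgroup
open scoped commutatorElement

universe u

theorem exists_quotRep {X : Type u} [Group X] {p : ℕ} [Fact p.Prime] (W : Subgroup X) [W.Normal]
    [IsMulCommutative W] (hexp : ∀ w ∈ W, w ^ p = 1) :
    ∃ (V : Type u) (_ : AddCommGroup V) (_ : Module (ZMod p) V)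
      (ρ : Representation (ZMod p) (X ⧸ W) V) (e : V ≃ W), e 0 = 1 ∧
        ∀ (x : X) v, (e (ρ (x : X ⧸ W) v) : X) = x * e v * x⁻¹ := by
  have hW : ∀ u ∈ W, ∀ v ∈ W, u * v = v * u := fun u hu v hv =>
    mem_centralizer_iff.1 (le_centralizer W hv) u hu
  let _ : CommGroup W := { (inferInstance : Group W) with
    mul_comm := fun a b => Subtype.ext (hW a a.2 b b.2) }
  obtain ⟨φ, hφ⟩ : ∃ φ : X ⧸ W →* MulAut W, ∀ x : X, φ x = MulAut.conjNormal x :=
    ⟨QuotientGroup.lift W MulAut.conjNormal fun w hw => MulEquiv.ext fun u => Subtype.ext (by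
      change w * u * w⁻¹ = u
      rw [hW w hw u u.2, mul_inv_cancel_right]), fun _ => rfl⟩
  obtain ⟨V, i1, i2, ρ, e, h1, h2⟩ := Lead.exists_rep_of_commGroup (p := p) (H := X ⧸ W) (A := W)
    (fun a => Subtype.ext (hexp a a.2)) (fun h => (φ h).toMonoidHom)
    (fun a => by rw [map_one]; rfl) (fun g h a => by rw [map_mul]; rfl)
  refine ⟨V, i1, i2, ρ, e, ?_, fun x v => ?_⟩
  · have := h1 0 0
    rw [add_zero] at this
    exact (left_eq_mul.1 this)
  · rw [h2, hφ]; rfl

/-- Knörr's bound for the preimage of `E` -/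
theorem kk_comap_le {X : Type u} [Group X] [Finite X] {p : ℕ} [Fact p.Prime] (W : Subgroup X)
    [W.Normal] (hW : W ≠ ⊥) (hexp : ∀ w ∈ W, w ^ p = 1) (hself : centralizer (W : Set X) = W)
    {A E : Subgroup (X ⧸ W)} (hcomm : ⁅E, E⁆ ≤ A) (hp : ¬ p ∣ Nat.card E)
    (hsr : ∀ a : X, (a : X ⧸ W) ∈ A → ∀ w ∈ W, a * w = w * a → a ∈ W ∨ w = 1) :
    kk (E.comap (QuotientGroup.mk' W)) ≤ Nat.card W := by
  set L := E.comap (QuotientGroup.mk' W) with hL
  have hWL : W ≤ L := fun w hw => by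
    rw [hL, mem_comap, QuotientGroup.mk'_apply, (QuotientGroup.eq_one_iff w).2 hw]
    exact E.one_mem
  have hidx : (W.subgroupOf L).index = Nat.card E := by
    have h := relIndex_ker L (QuotientGroup.mk' W)
    rw [QuotientGroup.ker_mk', hL, map_comap_eq_self_of_surjective (QuotientGroup.mk'_surjective W)]
      at h
    exact h
  have hWp : IsPGroup p (W.subgroupOf L) := fun g =>
    ⟨1, Subtype.ext (Subtype.ext (by simpa using hexp _ g.2))⟩
  obtain ⟨k, hk⟩ := hWp.exists_card_eq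
  obtain ⟨G, hG⟩ := exists_right_complement'_of_coprime (N := W.subgroupOf L) (by
    rw [hk, hidx]
    exact Nat.Coprime.pow_left _ ((Nat.Prime.coprime_iff_not_dvd Fact.out).2 hp))
  obtain ⟨w, hw, hw1⟩ : ∃ w ∈ W, w ≠ 1 := by
    by_contra h
    push Not at h
    exact hW (eq_bot_iff.2 h)
  rw [← Nat.card_congr (subgroupOfEquivOfLe hWL).toEquiv]
  refine S4958.result p (W.subgroupOf L) (fun v hv => Subtype.ext (hexp _ hv)) (hidx ▸ hp) ?_ G hG
    ⟨w, hWL hw⟩ hw fun a ha b hb => ?_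
  · ext x
    rw [mem_subgroupOf, mem_centralizer_iff]
    conv_rhs => rw [← hself, mem_centralizer_iff]
    exact ⟨fun h u hu => congrArg Subtype.val (h ⟨u, hWL hu⟩ hu),
      fun h u hu => Subtype.ext (h u hu)⟩
  · have h1 : ⁅a, b⁆ ∈ G ⊓ centralizer ({⟨w, hWL hw⟩} : Set L) := by
      rw [commutatorElement_def]
      exact mul_mem (mul_mem (mul_mem ha hb) (inv_mem ha)) (inv_mem hb)
    have h2 : ((⁅a, b⁆ : L) : X) ∈ W := by
      refine (hsr _ ?_ w hw
        (congrArg Subtype.val (mem_centralizer_singleton_iff.1 h1.2))).resolve_right hw1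
      exact hcomm (commutator_mem_commutator (mem_comap.1 a.2) (mem_comap.1 b.2))
    exact commutatorElement_eq_one_iff_mul_comm.1
      (disjoint_def.1 hG.disjoint (mem_subgroupOf.2 h2) h1.1)

theorem mul_pow_le {f e n : ℕ} (he : 0 < e) (h : f * e ≤ n) : f * 3 ^ e ≤ 3 ^ n := by
  cases f with
  | zero => simp
  | succ f =>
    have h1 : f + 1 ≤ 3 ^ f := Nat.lt_pow_self (by norm_num)
    have h2 : f + e ≤ n := by nlinarith
    calc (f + 1) * 3 ^ e ≤ 3 ^ f * 3 ^ e := Nat.mul_le_mul_right _ h1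
      _ ≤ 3 ^ n := by rw [← pow_add]; exact Nat.pow_le_pow_right (by norm_num) h2

theorem caseC2 {X : Type u} [Group X] [Finite X] (hs : Group.IsSolvable X)
    (ih : IH.{u} (Nat.card X)) {p : ℕ} (hp : p.Prime) (W : Subgroup X) [W.Normal] (hW : W ≠ ⊥)
    (hexp : ∀ w ∈ W, w ^ p = 1) (hself : centralizer (W : Set X) = W)
    (hsr : ∀ A : Subgroup X, A.Normal → W ≤ A → ⁅A, A⁆ ≤ W → ∀ a ∈ A, ∀ w ∈ W, a * w = w * a →
      a ∈ W ∨ w = 1) : kk X * 3 ≤ gg (Nat.card W) := by
  have := Fact.mk hp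
  have hcomm : IsMulCommutative W := le_centralizer_iff_isMulCommutative.1 hself.ge
  have hsurj := QuotientGroup.mk'_surjective W
  obtain ⟨V, i1, i2, ρ, e, he0, he⟩ := exists_quotRep W hexp
  have : Finite V := Finite.of_equiv _ e.symm
  have : Nontrivial W := (nontrivial_iff_ne_bot W).2 hW
  have : Nontrivial V := e.nontrivial
  have hsr1 : ∀ A : Subgroup (X ⧸ W), A.Normal → IsMulCommutative A →
      ∀ a : X, (a : X ⧸ W) ∈ A → ∀ w ∈ W, a * w = w * a → a ∈ W ∨ w = 1 := by
    intro A hA hc a ha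
    refine hsr (A.comap (QuotientGroup.mk' W)) inferInstance (fun w hw => ?_) ?_ a ha
    · rw [mem_comap, QuotientGroup.mk'_apply, (QuotientGroup.eq_one_iff w).2 hw]
      exact A.one_mem
    · rw [commutator_le]
      intro x hx y hy
      rw [← QuotientGroup.eq_one_iff, ← QuotientGroup.mk'_apply, map_commutatorElement,
        commutatorElement_eq_one_iff_mul_comm]
      exact mem_centralizer_iff.1 (le_centralizer A hy) _ hx
  have hsr2 : ∀ A : Subgroup (X ⧸ W), A.Normal → IsMulCommutative A →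
      ∀ a ∈ A, ∀ v, ρ a v = v → a = 1 ∨ v = 0 := by
    intro A hA hc a ha v hv
    obtain ⟨a, rfl⟩ := hsurj a
    have h1 := he a v
    rw [show ρ (a : X ⧸ W) v = v from hv, eq_mul_inv_iff_mul_eq] at h1
    rcases hsr1 A hA hc a ha _ (e v).2 h1.symm with h | h
    · exact Or.inl ((QuotientGroup.eq_one_iff a).2 h)
    · exact Or.inr (e.injective (Subtype.ext h |>.trans he0.symm))
  obtain ⟨A, I, E, hA, hE, hI, hAI, hIE, hEC, hEE, hEI, hZ, hidx, hpow, hF⟩ :=
    exists_sym (M := X ⧸ W) fun A hA hc => isCyclic_of_semireg ρ A (hsr2 A hA hc)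
  have hAc : IsMulCommutative A := le_centralizer_iff_isMulCommutative.1 (hAI.trans (hIE.trans hEC))
  have hdim := dim_bound ρ hAI hIE hEC hEE hEI (hsr2 A hA hAc)
  have hcard : Nat.card W = p ^ Module.finrank (ZMod p) V := by
    rw [← Nat.card_congr e, Module.natCard_eq_pow_finrank (K := ZMod p), Nat.card_zmod]
  -- `E` is a `p'`-group
  have hAp : ∀ a ∈ A, a ^ p = 1 → a = 1 := by
    intro a ha hap
    have hP : IsPGroup p (zpowers a) := by
      rintro ⟨_, k, rfl⟩
      exact ⟨1, Subtype.ext (by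
        change (a ^ k) ^ p ^ 1 = 1
        rw [pow_one, ← zpow_natCast, ← zpow_mul, mul_comm, zpow_mul, zpow_natCast, hap, one_zpow])⟩
    let _ : MulAction (zpowers a) V :=
      { smul := fun g v => ρ g v
        one_smul := fun v => by
          change ρ 1 v = v
          rw [map_one]; rfl
        mul_smul := fun g h v => by
          change ρ (g * h) v = ρ g (ρ h v)
          rw [map_mul]; rfl }
    obtain ⟨v, hv, hv0⟩ := hP.exists_fixed_point_of_prime_dvd_card_of_fixed_point V (by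
      rw [Nat.card_congr e, hcard]
      exact dvd_pow_self p Module.finrank_pos.ne') (a := 0) (fun g => map_zero (ρ g))
    exact (hsr2 A hA hAc a ha v (hv ⟨a, mem_zpowers a⟩)).resolve_right hv0.symm
  have hEp : ¬ p ∣ Nat.card E := by
    intro h
    obtain ⟨x, hx⟩ := exists_prime_orderOf_dvd_card' p h
    have hxp : (x : X ⧸ W) ^ p = 1 := by
      rw [← hx, ← orderOf_coe]; exact pow_orderOf_eq_one _
    have h1 : (x : X ⧸ W) ∈ A := by
      refine hZ ⟨x.2, mem_centralizer_iff.2 fun y hy => ?_⟩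
      have h2 : ⁅y, (x : X ⧸ W)⁆ ∈ A := hEE (commutator_mem_commutator hy x.2)
      have h3 : Commute ⁅y, (x : X ⧸ W)⁆ x := mem_centralizer_iff.1 (hEC x.2) _ h2
      have h4 : y * x * y⁻¹ = ⁅y, (x : X ⧸ W)⁆ * x := by rw [commutatorElement_def]; group
      have h5 : (y * x * y⁻¹) ^ p = 1 := by rw [conj_pow, hxp]; group
      rw [h4, h3.mul_pow, hxp, mul_one] at h5
      exact commutatorElement_eq_one_iff_mul_comm.1 (hAp _ h2 h5)
    have h2 : x = 1 := Subtype.ext (hAp _ h1 hxp)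
    rw [h2, orderOf_one] at hx
    exact hp.one_lt.ne hx
  have hkE := kk_comap_le W hW hexp hself hEE hEp (hsr1 A hA hAc)
  -- the quotient `C / E`
  set C := centralizer (A : Set (X ⧸ W)) with hC
  set Y := C.map (QuotientGroup.mk' A) with hY
  have hEY : E.map (QuotientGroup.mk' A) ≤ Y := map_mono hEC
  have hsm := small (Y := Y) inferInstance (ih.mono (by
      have h1 := card_le_card_group Y
      have h2 := Nat.card_le_card_of_surjective _ (QuotientGroup.mk'_surjective A)
      have h3 : Nat.card (X ⧸ W) < Nat.card X := by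
        rw [card_eq_card_quotient_mul_card_subgroup W]
        exact lt_mul_of_one_lt_right Nat.card_pos ((one_lt_card_iff_ne_bot W).2 hW)
      omega)) (e := I.relIndex E) (by
      rw [hF, ← le_centralizer_iff_isMulCommutative]
      rintro ⟨_, -⟩ ⟨x, hx, rfl⟩
      rw [mem_centralizer_iff]
      rintro ⟨_, -⟩ ⟨y, hy, rfl⟩
      refine Subtype.ext (commutatorElement_eq_one_iff_mul_comm.1 ?_)
      change ⁅QuotientGroup.mk' A y, QuotientGroup.mk' A x⁆ = 1
      rw [← map_commutatorElement]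
      exact (QuotientGroup.eq_one_iff _).2 (hEE (commutator_mem_commutator hy hx))) (by
      have h := relIndex_ker E (QuotientGroup.mk' A)
      rw [QuotientGroup.ker_mk'] at h
      rw [hF, Nat.card_congr (subgroupOfEquivOfLe hEY).toEquiv, ← h, hidx]) (by
      rw [hF]
      rintro r ⟨_, hy⟩ ⟨x, hx, rfl⟩ h0
      have h1 : (QuotientGroup.mk' A x) ^ r ^ 2 = 1 := congrArg Subtype.val h0
      rw [← map_pow] at h1
      have h2 := hpow r x hx ((QuotientGroup.eq_one_iff _).1 h1)
      refine Subtype.ext ?_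
      change (QuotientGroup.mk' A x) ^ r = 1
      rw [← map_pow]
      exact (QuotientGroup.eq_one_iff _).2 h2)
  set L := C.comap (QuotientGroup.mk' W) with hL
  obtain ⟨ψ, hψ⟩ : ∃ ψ : L →* Y, ∀ x : L, (ψ x : (X ⧸ W) ⧸ A) = ((x : X) : X ⧸ W) :=
    ⟨((QuotientGroup.mk' A).comp ((QuotientGroup.mk' W).comp L.subtype)).codRestrict Y
      fun x => mem_map_of_mem _ x.2, fun _ => rfl⟩
  have hψs : Function.Surjective ψ := by
    rintro ⟨_, c, hc, rfl⟩
    obtain ⟨x, rfl⟩ := hsurj c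
    exact ⟨⟨x, hc⟩, Subtype.ext (hψ _)⟩
  have hker : ((QuotientGroup.mk' (fittingSubgroup Y)).comp ψ).ker =
      (E.comap (QuotientGroup.mk' W)).subgroupOf L := by
    ext x
    rw [MonoidHom.mem_ker, MonoidHom.comp_apply, QuotientGroup.mk'_apply, QuotientGroup.eq_one_iff,
      hF, mem_subgroupOf, hψ, mem_subgroupOf, mem_comap]
    change _ ∈ (E.map (QuotientGroup.mk' A)).comap (QuotientGroup.mk' A) ↔ _
    rw [comap_map_eq, QuotientGroup.ker_mk', sup_eq_left.2 (hAI.trans hIE)]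
    rfl
  have h1 := kk_le_ker_mul ((QuotientGroup.mk' (fittingSubgroup Y)).comp ψ)
    ((QuotientGroup.mk'_surjective _).comp hψs)
  rw [hker, kk_congr (subgroupOfEquivOfLe (comap_mono hEC))] at h1
  have h2 := kk_le_index_mul L
  rw [hL, index_comap_of_surjective _ hsurj, ← hL] at h2
  have h3 := mul_pow_le (Nat.pos_of_ne_zero (index_ne_zero_of_finite (H := I.subgroupOf E))) hdim
  rw [hcard, gg_prime_pow hp, ← hcard]
  calc kk X * 3 ≤ C.index * (Nat.card W * kk (Y ⧸ fittingSubgroup Y)) * 3 :=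
        Nat.mul_le_mul_right _ (h2.trans (Nat.mul_le_mul_left _
          (h1.trans (Nat.mul_le_mul_right _ hkE))))
    _ = C.index * (kk (Y ⧸ fittingSubgroup Y) * 3) * Nat.card W := by ring
    _ ≤ _ := Nat.mul_le_mul_right _ ((Nat.mul_le_mul_left _ hsm).trans h3)

end Cfsg.Agent.KB
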