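import Cfsg.Agent.Lib.KB.C1
import Cfsg.Agent.Lib.KB.C2

/-!
# The class number bound for solvable groups
-/

set_option autoImplicit false

namespace Cfsg.Agent.KB

open Cfsg Subgroup
open scoped commutatorElement

universe u

/-- at most one step of a chain collapses modulo a minimal normal subgroup -/
theorem chain_drop {X Y : Type*} [Group X] [Group Y] (W : Subgroup X) [W.Normal]
    (hmin : ∀ M : Subgroup X, M.Normal → M ≤ W → M = ⊥ ∨ M = W) (Φ : Subgroup X → Subgroup Y)
    (hmono : Monotone Φ) (hn : ∀ U : Subgroup X, U.Normal → (Φ U).Normal)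
    (hst : ∀ U V : Subgroup X, V ≤ fittingSubgroup X → U ≤ V → Φ U = Φ V → V ≤ U ⊔ W)
    (hF : Φ (fittingSubgroup X) ≤ fittingSubgroup Y) {c : ℕ} (h : Chain X (c + 1)) :
    Chain Y c := by
  obtain ⟨f, hf, hlt, hF'⟩ := h
  have hmo : ∀ i j, i ≤ j → j ≤ c + 1 → f i ≤ f j := by
    intro i j hij hj
    induction j, hij using Nat.le_induction with
    | base => exact le_rfl
    | succ j _ ih => exact (ih (by omega)).trans (hlt j (by omega)).le
  have hcol : ∀ i < c + 1, Φ (f i) = Φ (f (i + 1)) → ¬ W ≤ f i ∧ W ≤ f (i + 1) := by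
    intro i hi h
    have h1 := hst _ _ ((hmo _ _ hi le_rfl).trans hF') (hlt i hi).le h
    refine ⟨fun h2 => (hlt i hi).not_ge (h1.trans (sup_le le_rfl h2)), ?_⟩
    have := hf (i + 1)
    rcases hmin (f (i + 1) ⊓ W) inferInstance inf_le_right with h2 | h2
    · refine absurd (fun x hx => ?_) (hlt i hi).not_ge
      obtain ⟨u, hu, w, hw, rfl⟩ := mem_sup_of_normal_right.1 (h1 hx)
      have h3 : w ∈ f (i + 1) ⊓ W :=
        ⟨(Subgroup.mul_mem_cancel_left _ ((hlt i hi).le hu)).1 hx, hw⟩
      rw [h2, mem_bot] at h3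
      rwa [h3, mul_one]
    · exact inf_eq_right.1 h2
  obtain ⟨j, hj⟩ : ∃ j, ∀ i < c + 1, i ≠ j → Φ (f i) < Φ (f (i + 1)) := by
    by_cases h : ∃ j < c + 1, Φ (f j) = Φ (f (j + 1))
    · obtain ⟨j, hj, h⟩ := h
      refine ⟨j, fun i hi hij => lt_of_le_of_ne (hmono (hlt i hi).le) fun h' => ?_⟩
      rcases lt_or_gt_of_ne hij with h1 | h1
      · exact (hcol j hj h).1 ((hcol i hi h').2.trans (hmo _ _ h1 hj.le))
      · exact (hcol i hi h').1 ((hcol j hj h).2.trans (hmo _ _ h1 hi.le))
    · push Not at h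
      exact ⟨0, fun i hi _ => lt_of_le_of_ne (hmono (hlt i hi).le) (h i hi)⟩
  refine ⟨fun i => if i ≤ j then Φ (f i) else Φ (f (i + 1)), fun i => ?_, fun i hi => ?_, ?_⟩
  · dsimp only
    split_ifs <;> exact hn _ (hf _)
  · dsimp only
    split_ifs with h1 h2 h2
    · exact hj i (by omega) (by omega)
    · exact (hmono (hlt i (by omega)).le).trans_lt (hj (i + 1) (by omega) (by omega))
    · omega
    · exact hj (i + 1) (by omega) (by omega)
  · dsimp only
    split_ifs
    · exact (hmono ((hmo _ _ (Nat.le_succ c) le_rfl).trans hF')).trans hF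
    · exact (hmono hF').trans hF

theorem caseC {X : Type u} [Group X] [Finite X] (hs : Group.IsSolvable X)
    (ih : IH.{u} (Nat.card X)) {p : ℕ} (hp : p.Prime) (W : Subgroup X) [W.Normal] (hW : W ≠ ⊥)
    (hmin : ∀ M : Subgroup X, M.Normal → M ≤ W → M = ⊥ ∨ M = W)
    (hexp : ∀ w ∈ W, w ^ p = 1) (hself : centralizer (W : Set X) = W) :
    kk X * 3 ≤ gg (Nat.card W) := by
  by_cases h : ∀ A : Subgroup X, A.Normal → W ≤ A → ⁅A, A⁆ ≤ W → ∀ a ∈ A, ∀ w ∈ W,
      a * w = w * a → a ∈ W ∨ w = 1
  · exact caseC2 hs ih hp W hW hexp hself h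
  · push Not at h
    obtain ⟨A, hA, h1, h2, a, ha, w, hw, h3, h4, h5⟩ := h
    exact caseC1 hs ih W hmin hself h1 h2 ha h4 hw h5 h3

theorem three_mul_le_gg {p : ℕ} (hp : p.Prime) {G : Type*} [Group G] [Finite G]
    {W : Subgroup G} (hW : W ≠ ⊥) (h : IsPGroup p W) : Nat.card W * 3 ≤ gg (Nat.card W) := by
  have := Fact.mk hp
  obtain ⟨n, hn⟩ := h.exists_card_eq
  have h0 : n ≠ 0 := by
    rintro rfl
    exact hW (card_eq_one.1 (by simpa using hn))
  rw [hn, gg_prime_pow hp, mul_comm]
  exact Nat.mul_le_mul_right _ (Nat.le_self_pow h0 3)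

theorem caseA {X : Type u} [Group X] [Finite X] (hs : Group.IsSolvable X)
    (ih : IH.{u} (Nat.card X)) {p : ℕ} (hp : p.Prime) (W : Subgroup X) [W.Normal] (hW : W ≠ ⊥)
    (hmin : ∀ M : Subgroup X, M.Normal → M ≤ W → M = ⊥ ∨ M = W) (hWp : IsPGroup p W)
    (hΦ : W ≤ frattini X) {c : ℕ} (hc : Chain X (c + 1)) :
    kk X * 3 ^ (c + 1) ≤ gg (Nat.card (fittingSubgroup X)) := by
  have hF := H2.fitting_quotient_of_le_frattini W hΦ
  have hWF : W ≤ fittingSubgroup X := hΦ.trans H2.frattini_le_fitting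
  have hlt : Nat.card (X ⧸ W) < Nat.card X := by
    rw [card_eq_card_quotient_mul_card_subgroup W]
    exact lt_mul_of_one_lt_right Nat.card_pos ((one_lt_card_iff_ne_bot W).2 hW)
  have h1 := ih (X ⧸ W) inferInstance hlt c (chain_drop W hmin
    (fun U => U.map (QuotientGroup.mk' W)) (fun _ _ h => map_mono h)
    (fun U hU => hU.map _ (QuotientGroup.mk'_surjective W)) (fun U V _ _ h => ?_) hF.ge hc)
  · have h2 : Nat.card (fittingSubgroup X) = Nat.card (fittingSubgroup (X ⧸ W)) * Nat.card W := by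
      have h := relIndex_ker (fittingSubgroup X) (QuotientGroup.mk' W)
      rw [QuotientGroup.ker_mk'] at h
      rw [hF, ← h, card_eq_relIndex_mul W (fittingSubgroup X), inf_eq_left.2 hWF]
    rw [h2, gg_mul]
    calc kk X * 3 ^ (c + 1) ≤ Nat.card W * kk (X ⧸ W) * 3 ^ (c + 1) :=
          Nat.mul_le_mul_right _ ((kk_le_mul_quot W).trans (Nat.mul_le_mul_right _ kk_le_card))
      _ = kk (X ⧸ W) * 3 ^ c * (Nat.card W * 3) := by ring
      _ ≤ _ := Nat.mul_le_mul h1 (three_mul_le_gg hp hW hWp)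
  · have := congrArg (comap (QuotientGroup.mk' W)) h
    simp only [comap_map_eq, QuotientGroup.ker_mk'] at this
    exact this ▸ le_sup_left

theorem caseB {X : Type u} [Group X] [Finite X] (hs : Group.IsSolvable X)
    (ih : IH.{u} (Nat.card X)) (W : Subgroup X) [W.Normal] (hW : W ≠ ⊥)
    (hmin : ∀ M : Subgroup X, M.Normal → M ≤ W → M = ⊥ ∨ M = W) [IsMulCommutative W]
    (K : Subgroup X) [K.Normal] (hK : K ≠ ⊥) (hWK : W ⊓ K = ⊥)
    (hC : centralizer (W : Set X) = W ⊔ K) {c : ℕ} (hc : Chain X (c + 1)) :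
    kk X * 3 ^ (c + 1) ≤ gg (Nat.card (fittingSubgroup X)) := by
  have hWF : W ≤ fittingSubgroup X := le_fitting_of_comm W
  have hFC : fittingSubgroup X ≤ W ⊔ K := hC ▸ fitting_le_centralizer W hmin
  have hsurj := QuotientGroup.mk'_surjective K
  -- the quotient by `K`
  have hn : (W.map (QuotientGroup.mk' K)).Normal := Normal.map inferInstance _ hsurj
  have hF : fittingSubgroup (X ⧸ K) = W.map (QuotientGroup.mk' K) := by
    refine le_antisymm ((fitting_le_centralizer (W.map (QuotientGroup.mk' K))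
      fun U hU hUW => ?_).trans ?_) (le_fitting_of_comm _)
    · have h1 : (U.comap (QuotientGroup.mk' K) ⊓ W).map (QuotientGroup.mk' K) = U := by
        refine le_antisymm ((map_mono inf_le_left).trans (map_comap_le _ _)) fun u hu => ?_
        obtain ⟨w, hw, rfl⟩ := hUW hu
        exact ⟨w, ⟨hu, hw⟩, rfl⟩
      rcases hmin (U.comap (QuotientGroup.mk' K) ⊓ W) inferInstance inf_le_right with h | h
      · left; rw [← h1, h, Subgroup.map_bot]
      · right; rw [← h1, h]
    · intro x hx
      obtain ⟨x, rfl⟩ := hsurj x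
      have h1 : x ∈ centralizer (W : Set X) := by
        rw [mem_centralizer_iff]
        intro w hw
        have h2 := mem_centralizer_iff.1 hx _ ⟨w, hw, rfl⟩
        have h3 : (w * x)⁻¹ * (x * w) ∈ W ⊓ K := by
          refine ⟨?_, QuotientGroup.eq.1 h2⟩
          have : (w * x)⁻¹ * (x * w) = x⁻¹ * w⁻¹ * x⁻¹⁻¹ * w := by group
          rw [this]
          exact W.mul_mem (‹W.Normal›.conj_mem _ (W.inv_mem hw) _) hw
        rw [hWK, mem_bot, inv_mul_eq_one] at h3
        exact h3
      rw [hC] at h1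
      have h2 := mem_map_of_mem (QuotientGroup.mk' K) h1
      rw [Subgroup.map_sup, (map_eq_bot_iff K).2 (QuotientGroup.ker_mk' K).ge, sup_bot_eq] at h2
      exact h2
  have hcW : Nat.card (W.map (QuotientGroup.mk' K)) = Nat.card W := by
    have h := relIndex_ker W (QuotientGroup.mk' K)
    rw [QuotientGroup.ker_mk'] at h
    rw [← h, card_eq_relIndex_mul K W, inf_comm, hWK, card_bot, mul_one]
  have hlt : Nat.card (X ⧸ K) < Nat.card X := by
    rw [card_eq_card_quotient_mul_card_subgroup K]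
    exact lt_mul_of_one_lt_right Nat.card_pos ((one_lt_card_iff_ne_bot K).2 hK)
  have h1 := ih (X ⧸ K) inferInstance hlt 1 (chain_one (by
    rw [hF, ← one_lt_card_iff_ne_bot, hcW, one_lt_card_iff_ne_bot]; exact hW))
  rw [hF, hcW, pow_one] at h1
  -- the subgroup `K`
  have hlt' : Nat.card K < Nat.card X := by
    refine lt_of_le_of_ne (card_le_card_group K) fun h => hW ?_
    rw [← hWK, eq_top_of_card_eq K h, inf_top_eq]
  have hded : ∀ V : Subgroup X, V ≤ fittingSubgroup X → V ⊔ W ≤ W ⊔ ((V ⊔ W) ⊓ K) := by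
    intro V hV x hx
    have h2 : x ∈ W ⊔ K := (sup_le (hV.trans hFC) le_sup_left : V ⊔ W ≤ W ⊔ K) hx
    obtain ⟨w, hw, k, hk, rfl⟩ := mem_sup_of_normal_left.1 h2
    exact mul_mem_sup hw ⟨(Subgroup.mul_mem_cancel_left _ (mem_sup_right hw)).1 hx, hk⟩
  have hFK : fittingSubgroup K = (fittingSubgroup X).subgroupOf K := by
    apply map_injective K.subtype_injective
    rw [H1.map_subtype_fittingSubgroup_eq, subgroupOf_map_subtype]
  have h2 := ih K inferInstance hlt' c (chain_drop W hmin
    (fun U => (U ⊔ W).subgroupOf K) (fun _ _ h => comap_mono (sup_le_sup_right h _))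
    (fun U hU => inferInstance) (fun U V hV _ h => ?_)
    (by rw [hFK, sup_eq_left.2 hWF]) hc)
  · have h3 : Nat.card (fittingSubgroup X) = Nat.card (fittingSubgroup K) * Nat.card W := by
      have h4 : fittingSubgroup X = W ⊔ (fittingSubgroup X ⊓ K) := by
        refine le_antisymm ?_ (sup_le hWF inf_le_left)
        have := hded _ le_rfl
        rwa [sup_eq_left.2 hWF] at this
      have h5 : Nat.card (fittingSubgroup K) = Nat.card (fittingSubgroup X ⊓ K : Subgroup X) := by
        rw [← H1.map_subtype_fittingSubgroup_eq, card_map_of_injective K.subtype_injective]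
      have h6 : W.relIndex (fittingSubgroup X ⊓ K) = Nat.card (fittingSubgroup K) := by
        rw [h5, card_eq_relIndex_mul W (fittingSubgroup X ⊓ K),
          eq_bot_iff.2 ((inf_le_inf_left W inf_le_right).trans hWK.le), card_bot, mul_one]
      rw [card_eq_relIndex_mul W (fittingSubgroup X), inf_eq_left.2 hWF, ← h6]
      congr 1
      conv_lhs => rw [h4]
      exact relIndex_sup_left _ _
    rw [h3, gg_mul]
    calc kk X * 3 ^ (c + 1) ≤ kk K * kk (X ⧸ K) * 3 ^ (c + 1) :=
          Nat.mul_le_mul_right _ (kk_le_mul_quot K)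
      _ = kk K * 3 ^ c * (kk (X ⧸ K) * 3) := by ring
      _ ≤ _ := Nat.mul_le_mul h2 h1
  · have h3 := congrArg (map K.subtype) h
    simp only [subgroupOf_map_subtype] at h3
    have h4 := hded V hV
    rw [← h3] at h4
    exact le_sup_left.trans (h4.trans (sup_le le_sup_right inf_le_left))

theorem kbound_step {X : Type u} [Group X] [Finite X] (hs : Group.IsSolvable X)
    (ih : IH.{u} (Nat.card X)) : KBound X := by
  rcases subsingleton_or_nontrivial X with h0 | h0
  · rintro c ⟨f, -, hlt, -⟩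
    obtain rfl : c = 0 := by
      by_contra h
      exact (hlt 0 (Nat.pos_of_ne_zero h)).ne (Subsingleton.elim _ _)
    rw [Subsingleton.elim (fittingSubgroup X) ⊥, card_bot, gg_one, pow_zero, mul_one]
    exact kk_le_card.trans Nat.card_unique.le
  obtain ⟨W, hWn, hW, -, hmin, hab, p, hp, hWp, hexp⟩ :=
    H2.exists_minimal_normal_pgroup (⊤ : Subgroup X) top_ne_bot
  have hWF : W ≤ fittingSubgroup X := le_fitting_of_comm W
  have key : ∀ c, Chain X (c + 1) → kk X * 3 ^ (c + 1) ≤ gg (Nat.card (fittingSubgroup X)) := by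
    intro c hc
    by_cases hΦ : W ≤ frattini X
    · exact caseA hs ih hp W hW hmin hWp hΦ hc
    obtain ⟨M, hM⟩ := (H2.exists_complement_iff_not_le_frattini W hW hmin).2 hΦ
    have hWC : W ≤ centralizer (W : Set X) := le_centralizer W
    have hC : centralizer (W : Set X) = W ⊔ (M ⊓ centralizer (W : Set X)) := by
      refine le_antisymm (fun x hx => ?_) (sup_le hWC inf_le_right)
      obtain ⟨w, hw, m, hm, rfl⟩ := mem_sup_of_normal_left.1 (hM.sup_eq_top.ge (mem_top x))
      exact mul_mem_sup hw ⟨hm, (Subgroup.mul_mem_cancel_left _ (hWC hw)).1 hx⟩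
    by_cases hK : M ⊓ centralizer (W : Set X) = ⊥
    · rw [hK, sup_bot_eq] at hC
      have hF : fittingSubgroup X = W :=
        le_antisymm (hC ▸ fitting_le_centralizer W hmin) hWF
      obtain rfl : c = 0 := by
        by_contra h
        obtain ⟨f, hf, hlt, hF'⟩ := hc
        have h1 : ∀ i, c + i ≤ c + 1 → f (c + i) ≤ W := by
          intro i hi
          obtain rfl | rfl : i = 0 ∨ i = 1 := by omega
          · exact (hlt c (by omega)).le.trans (hF ▸ hF')
          · exact hF ▸ hF'
        rcases hmin _ (hf c) (h1 0 (by omega)) with h2 | h2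
        · have h3 := hlt (c - 1) (by omega)
          rw [show c - 1 + 1 = c by omega, h2] at h3
          exact not_lt_bot h3
        · exact (hlt c (by omega)).not_ge (h2 ▸ h1 1 le_rfl)
      rw [hF, zero_add, pow_one]
      exact caseC hs ih hp W hW hmin hexp hC
    · have hn : (M ⊓ centralizer (W : Set X)).Normal := ⟨fun k hk x => by
        obtain ⟨m, hm, w, hw, rfl⟩ := mem_sup_of_normal_right.1
          (hM.symm.sup_eq_top.ge (mem_top x))
        have h1 : m * w * k * (m * w)⁻¹ = m * k * m⁻¹ := by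
          rw [mul_assoc m w k, mem_centralizer_iff.1 hk.2 w hw]; group
        rw [h1]
        exact ⟨M.mul_mem (M.mul_mem hm hk.1) (M.inv_mem hm),
          (inferInstance : (centralizer (W : Set X)).Normal).conj_mem _ hk.2 _⟩⟩
      exact caseB hs ih W hW hmin _ hK
        (eq_bot_iff.2 ((inf_le_inf_left W inf_le_left).trans hM.disjoint.le_bot)) hC hc
  intro c hc
  cases c with
  | zero =>
    refine le_trans ?_ (key 0 (chain_one fun h => hW (eq_bot_iff.2 (h ▸ hWF))))
    exact Nat.mul_le_mul_left _ (by norm_num)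
  | succ c => exact key c hc

theorem kbound (X : Type u) [Group X] [Finite X] (hs : Group.IsSolvable X) : KBound X := by
  have key : ∀ n, IH.{u} n := by
    intro n
    induction n with
    | zero => exact fun Y _ _ _ h => absurd h (Nat.not_lt_zero _)
    | succ n ih => exact fun Y _ _ hY h => kbound_step hY (ih.mono (by omega))
  exact key (Nat.card X + 1) X hs (Nat.lt_succ_self _)

end Cfsg.Agent.KB
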