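import Cfsg.Agent.Lib.KB.Over
import Cfsg.Agent.Lib.KB.Main
import Cfsg.Agent.Lib.H5.Green
import Cfsg.Agent.Lib.H3.Cover

/-!
# Reduction of the block bound to the class number bound
-/

set_option autoImplicit false

namespace Cfsg.Agent.KB

open Cfsg Subgroup H3 H5
open scoped ComplexConjugate

universe u

variable {p : ℕ} [Fact p.Prime] {M : Ideal AlgInt} [PMod p M]

theorem blk_inner_subgroupOf {G : Type*} [Group G] {N T : Subgroup G} (hNT : N ≤ T) [Fintype N]
    [Fintype (N.subgroupOf T)] (ξ : T → ℂ) (θ : N → ℂ) :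
    classInner (fun n : N.subgroupOf T => ξ n) (fun n => θ (subgroupOfEquivOfLe hNT n)) =
      classInner (fun n : N => ξ (inclusion hNT n)) θ :=
  H4.classInner_comp_equiv (subgroupOfEquivOfLe hNT).toEquiv
    (fun n : N => ξ (inclusion hNT n)) θ

omit [Fact p.Prime] in
theorem blk_indFun_mem {G : Type*} [Group G] [Fintype G] (T : Subgroup G) {f : T → ℂ}
    (hf : IsClassFunction T f) (hf' : ∀ t, f t ∈ locRing M) (g : G) :
    indFun T f g ∈ locRing M := by
  classical
  have := Fintype.ofFinite (G ⧸ T)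
  rw [H4.indFun_eq_sum_quotient T hf]
  refine Subring.sum_mem _ fun q _ => ?_
  rw [H4.extendByZero_eq_dite]
  split_ifs
  · exact hf' _
  · exact zero_mem _

/-- Fong–Reynolds over a normal `p'`-subgroup -/
theorem fong_reynolds {G : Type*} [Group G] [Finite G] (N : Subgroup G) [N.Normal] [Fintype N]
    (hN : ¬ p ∣ Nat.card N) {B : Set (IrrCharacter G)} (hB : IsPBlock M B) {χ : IrrCharacter G}
    (hχ : χ ∈ B) {θ : IrrCharacter N} (h : classInner (fun n : N => (χ : G → ℂ) n) θ ≠ 0) :
    ∃ b : Set (IrrCharacter (H4.inertia (G := G) (θ : N → ℂ))), IsPBlock M b ∧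
      B.ncard ≤ b.ncard ∧ blockDefect p b = blockDefect p B := by
  classical
  have := Fintype.ofFinite G
  generalize hT : H4.inertia (G := G) (θ : N → ℂ) = T
  replace hT := hT.symm
  have hNT : N ≤ T := hT ▸ H4.le_inertia (irr_isClassFunction θ)
  have := Fintype.ofFinite T
  have := Fintype.ofFinite (N.subgroupOf T)
  obtain ⟨ψ0, hψ0, hψθ, hψχ⟩ := H4.exists_clifford_correspondent θ.2 hNT hT χ.2 h
  let ψ : IrrCharacter T := ⟨ψ0, hψ0⟩
  set b := blockOf M (ψ : T → ℂ) with hbdef
  have hb : IsPBlock M b := isPBlock_blockOf ψ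
  have hψb : ψ ∈ b := self_mem_blockOf ψ
  have hover : ∀ ξ ∈ b, classInner (fun n : N => (ξ : T → ℂ) (inclusion hNT n)) θ ≠ 0 := by
    intro ξ hξ
    let θ' : IrrCharacter (N.subgroupOf T) :=
      ⟨fun n => (θ : N → ℂ) (subgroupOfEquivOfLe hNT n), H4.isIrr_comp_equiv _ θ.2⟩
    have h1 : classInner (fun n : N.subgroupOf T => (ψ : T → ℂ) n) θ' ≠ 0 := by
      rw [show (θ' : N.subgroupOf T → ℂ) = fun n => (θ : N → ℂ) (subgroupOfEquivOfLe hNT n)
        from rfl, blk_inner_subgroupOf]
      exact hψθ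
    have h2 := under_of_sameBlock (M := M)
      (by rwa [Nat.card_congr (subgroupOfEquivOfLe hNT).toEquiv]) hξ h1
    rwa [show (θ' : N.subgroupOf T → ℂ) = fun n => (θ : N → ℂ) (subgroupOfEquivOfLe hNT n)
        from rfl, blk_inner_subgroupOf] at h2
  let J : IrrCharacter T → IrrCharacter G := fun ξ =>
    if hξ : IsIrrCharacter G (indFun T (ξ : T → ℂ)) then ⟨_, hξ⟩ else χ
  have hJ : ∀ ξ ∈ b, (J ξ : G → ℂ) = indFun T (ξ : T → ℂ) := fun ξ hξ => by
    simp only [J, dif_pos (H4.isIrr_indFun_inertia θ.2 hNT hT ξ.2 (hover ξ hξ))]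
  have hJinj : Set.InjOn J b := fun ξ hξ ξ' hξ' e => Subtype.ext
    (H4.clifford_correspondent_unique θ.2 hNT hT ξ.2 ξ'.2 (hover ξ hξ) (hover ξ' hξ')
      (by rw [← hJ ξ hξ, ← hJ ξ' hξ', e]))
  have hJψ : J ψ = χ := Subtype.ext (by rw [hJ ψ hψb]; exact hψχ)
  have hidx : (T.index : ℂ) ≠ 0 := by exact_mod_cast T.index_ne_zero_of_finite
  have hcT : (Nat.card T : ℂ) ≠ 0 := H4.card_ne_zero'
  have hcoeff : blockCoeff (J '' b) = indFun T (blockCoeff b) := by
    have e1 : blockCoeff b = (Nat.card T : ℂ)⁻¹ • ∑ ξ ∈ fs b, (ξ : T → ℂ) 1 •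
        fun t => conj ((ξ : T → ℂ) t) := by
      funext t
      rw [blockCoeff_eq]
      simp [Finset.sum_apply]
    have e2 : fs (J '' b) = (fs b).image J := by
      ext x
      simp
    funext g
    rw [e1, H4.indFun_smul, H4.indFun_sum, blockCoeff_eq, e2,
      Finset.sum_image fun x hx y hy => hJinj (mem_fs.1 hx) (mem_fs.1 hy)]
    simp only [Pi.smul_apply, Finset.sum_apply, smul_eq_mul, H4.indFun_smul, H4.indFun_conj,
      Finset.mul_sum]
    refine Finset.sum_congr rfl fun ξ hξ => ?_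
    rw [hJ ξ (mem_fs.1 hξ), H4.indFun_one, ← T.index_mul_card, Nat.cast_mul]
    field_simp
  have hOG : blockIdem (J '' b) ∈ OG M G := fun g => by
    rw [coeff_blockIdem, hcoeff]
    exact blk_indFun_mem T (fun x y => blockCoeff_conj b x y) (blk_coeff_mem hb) g
  have hlam : ∀ ξ ∈ b, ∀ g, lam M (J ξ) (classSum ℂ g) = lam M ξ (resS T (classSum ℂ g)) := by
    intro ξ hξ g
    rw [lam_classSum, lam_def, om_resS_classSum, inducedCentralChar_eq_centralChar_indFun,
      hJ ξ hξ]
  have hAB : J '' b = B := by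
    refine Set.Subset.antisymm ?_ fun x hx => ?_
    · rintro _ ⟨ξ, hξ, rfl⟩
      refine blk_mem_of_sameBlock hB hχ (sameBlock_iff_classSum.2 fun g => ?_)
      rw [← hJψ, hlam ψ hψb, hlam ξ hξ]
      exact blk_lam_eq hb hψb hξ (resS_mem_ZO T (classSum_mem_ZO g))
    · exact mem_of_blockIdem_mem_OG hOG ⟨ψ, hψb, hJψ⟩ (blk_sameBlock hB hχ hx)
  have hdeg : ∀ ξ ∈ b, (charDegree (J ξ : G → ℂ)).factorization p =
      T.index.factorization p + (charDegree (ξ : T → ℂ)).factorization p := fun ξ hξ => by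
    rw [hJ ξ hξ, H4.charDegree_indFun T (irr_isCharacter ξ),
      Nat.factorization_mul T.index_ne_zero_of_finite (charDegree_ne_zero ξ), Finsupp.add_apply]
  refine ⟨b, hb, hAB ▸ Set.ncard_image_le, ?_⟩
  have hmin : minDeg p B = T.index.factorization p + minDeg p b := by
    apply le_antisymm
    · obtain ⟨ξ, hξ, e⟩ := exists_minDeg (p := p) ⟨ψ, hψb⟩
      rw [← e, ← hdeg ξ hξ]
      exact minDeg_le (hAB ▸ ⟨ξ, hξ, rfl⟩)
    · obtain ⟨x, hx, e⟩ := exists_minDeg (p := p) ⟨χ, hχ⟩
      obtain ⟨ξ, hξ, rfl⟩ := hAB.symm ▸ hx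
      rw [← e, hdeg ξ hξ]
      exact Nat.add_le_add_left (minDeg_le hξ) _
  have h1 := minDeg_add_blockDefect (p := p) ⟨ψ, hψb⟩
  have h2 := minDeg_add_blockDefect (p := p) ⟨χ, hχ⟩
  have h3 := factorization_index_add (p := p) T
  omega

/-- a block over an invariant character of the normal `p'`-subgroup `N` has defect at least
`ν(|K : N|)` when `K / N` is a normal `p`-subgroup -/
theorem le_blockDefect {G : Type*} [Group G] [Finite G] (hs : Group.IsSolvable G) (N : Subgroup G)
    [N.Normal] [Fintype N] (hN : ¬ p ∣ Nat.card N) {B : Set (IrrCharacter G)} (hB : IsPBlock M B)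
    {χ : IrrCharacter G} (hχ : χ ∈ B) {θ : IrrCharacter N}
    (h : classInner (fun n : N => (χ : G → ℂ) n) θ ≠ 0) (hinv : ∀ g : G, H4.cj g (θ : N → ℂ) = θ)
    (K : Subgroup G) [K.Normal] (hNK : N ≤ K) {a : ℕ} (ha : N.relIndex K = p ^ a) :
    a ≤ blockDefect p B := by
  classical
  have hp : p.Prime := Fact.out
  have := Fintype.ofFinite G
  have := Fintype.ofFinite K
  have := Fintype.ofFinite (N.subgroupOf K)
  have hcard : Nat.card (N.subgroupOf K) = Nat.card N :=
    Nat.card_congr (subgroupOfEquivOfLe hNK).toEquiv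
  have hθ' : IsIrrCharacter (N.subgroupOf K)
      (fun n => (θ : N → ℂ) (subgroupOfEquivOfLe hNK n)) := H4.isIrr_comp_equiv _ θ.2
  obtain ⟨φ, hφ, hφθ⟩ := H4.exists_irr_extension_of_coprime hθ'
    (fun k => funext fun n => congrFun (hinv k) (subgroupOfEquivOfLe hNK n))
    (by
      rw [hcard]
      change (N.relIndex K).Coprime _
      rw [ha]
      exact Nat.Coprime.pow_left _ ((Nat.Prime.coprime_iff_not_dvd hp).2 hN))
  have key : ∃ x ∈ B, classInner (fun k : K => (x : G → ℂ) k) φ ≠ 0 := by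
    by_contra hne
    push Not at hne
    let F : G → ℂ := ∑ x ∈ fs B, conj ((x : G → ℂ) 1) • (x : G → ℂ)
    have hF0 : ∀ k : K, k ∉ N.subgroupOf K → F k = 0 := fun k hk => by
      have h1 : p ∣ orderOf (k : G) := by
        rw [orderOf_coe]
        by_contra h2
        exact hk (mem_of_pReg_of_index (p := p) ⟨a, ha⟩ h2)
      have := weak_orthogonality' (blk_idem_mem hB).1 h1 (y := 1) (by simpa using hp.ne_one)
      simpa [F, Finset.sum_apply, mul_comm] using this
    have hres : ∀ {X : Type _} [Group X] [Fintype X] (f : X → G) (y : X → ℂ),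
        classInner (fun k => F (f k)) y =
          ∑ x ∈ fs B, conj ((x : G → ℂ) 1) * classInner (fun k => (x : G → ℂ) (f k)) y := by
      intro X _ _ f y
      have : (fun k => F (f k)) =
          ∑ x ∈ fs B, conj ((x : G → ℂ) 1) • fun k => (x : G → ℂ) (f k) := by
        funext k
        simp [F, Finset.sum_apply]
      rw [this, H4.classInner_sum_left]
      simp only [H4.classInner_smul_left]
    have h1 : classInner (fun k : K => F k) φ = 0 := by
      rw [hres]
      exact Finset.sum_eq_zero fun x hx => by rw [hne x (mem_fs.1 hx), mul_zero]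
    have h2 : classInner (fun n : N => F n) θ = 0 := by
      rw [← show _ = classInner (fun n : N => F n) θ from
        blk_inner_subgroupOf hNK (fun k : K => F k) θ]
      rw [classInner, mul_eq_zero] at h1 ⊢
      refine Or.inr ?_
      rw [← h1.resolve_left (inv_ne_zero H4.card_ne_zero'),
        ← Finset.sum_filter_of_ne (p := (· ∈ N.subgroupOf K)) fun k _ hk => by
          by_contra h3
          exact hk (by rw [hF0 k h3, zero_mul]),
        Finset.sum_subtype (p := (· ∈ N.subgroupOf K)) _ (by simp)]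
      exact Finset.sum_congr rfl fun n _ => by rw [hφθ]
    rw [hres] at h2
    have h3 : ∑ x ∈ fs B, charDegree (x : G → ℂ) * H4.mult (fun n : N => (x : G → ℂ) n) θ = 0 := by
      have : ((∑ x ∈ fs B, charDegree (x : G → ℂ) *
          H4.mult (fun n : N => (x : G → ℂ) n) θ : ℕ) : ℂ) = 0 := by
        rw [← h2, Nat.cast_sum]
        refine Finset.sum_congr rfl fun x _ => ?_
        rw [Nat.cast_mul, H4.mult_cast (IsCharacter_restrict N (irr_isCharacter x))
          (irr_isCharacter θ), ← irr_charDegree, map_natCast]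
      exact_mod_cast this
    have h4 := Finset.sum_eq_zero_iff.1 h3 χ (mem_fs.2 hχ)
    rcases mul_eq_zero.1 h4 with h5 | h5
    · exact charDegree_ne_zero χ h5
    · exact h ((H4.mult_eq_zero_iff (IsCharacter_restrict N (irr_isCharacter χ))
        (irr_isCharacter θ)).1 h5)
  obtain ⟨x, hx, hxφ⟩ := key
  have hd := charDegree_dvd_index_mul hs K x.2 hφ hxφ
  have hφd : charDegree φ = charDegree (θ : N → ℂ) := by
    have := hφθ 1
    simp only [map_one, OneMemClass.coe_one] at this
    simp only [charDegree, this]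
  have hθp : ¬ p ∣ charDegree (θ : N → ℂ) := fun h1 =>
    hN (h1.trans (IsIrrCharacter_charDegree_dvd θ.2))
  have h1 : (charDegree (x : G → ℂ)).factorization p ≤ K.index.factorization p := by
    have := (Nat.factorization_le_iff_dvd (charDegree_ne_zero x)
      (mul_ne_zero K.index_ne_zero_of_finite (hφd ▸ charDegree_ne_zero θ))).2 hd p
    rwa [Nat.factorization_mul K.index_ne_zero_of_finite (hφd ▸ charDegree_ne_zero θ),
      Finsupp.add_apply, hφd, Nat.factorization_eq_zero_of_not_dvd hθp, add_zero] at this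
  have h2 := minDeg_le (p := p) hx
  have h3 := minDeg_add_blockDefect (p := p) ⟨χ, hχ⟩
  have h4 := factorization_index_add (p := p) K
  have h5 : a ≤ (Nat.card K).factorization p := by
    rw [← hp.pow_dvd_iff_le_factorization Nat.card_pos.ne', ← ha]
    exact relIndex_dvd_card N K
  omega

theorem block_bound {G : Type u} [Group G] [Finite G] (hs : Group.IsSolvable G)
    {B : Set (IrrCharacter G)} (hB : IsPBlock M B) (hd : 0 < blockDefect p B) :
    B.ncard ≤ 3 ^ (blockDefect p B - 1) * p ^ blockDefect p B := by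
  have hp : p.Prime := Fact.out
  induction hn : Nat.card G using Nat.strong_induction_on generalizing G with
  | _ n ih =>
  set N := pPrimeCore p G with hNdef
  have := Fintype.ofFinite N
  have hN : ¬ p ∣ Nat.card N :=
    (Nat.Prime.coprime_iff_not_dvd hp).1 (H1.pPrimeCore_card_coprime p G).symm
  obtain ⟨χ, hχ⟩ := blk_nonempty hB
  obtain ⟨θ, hθ⟩ := exists_under (N := N) χ
  by_cases hT : H4.inertia (G := G) (θ : N → ℂ) = ⊤
  · have hinv : ∀ g : G, H4.cj g (θ : N → ℂ) = θ := fun g =>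
      H4.mem_inertia.1 (hT ▸ mem_top g)
    have h1 : B.ncard ≤ kk (G ⧸ N) :=
      (Set.ncard_le_ncard fun x hx =>
        under_of_sameBlock hN (blk_sameBlock hB hχ hx) hθ).trans (card_over_le N θ.2 hinv)
    have hF : fittingSubgroup (G ⧸ N) = pCore p (G ⧸ N) :=
      H1.fittingSubgroup_eq_pCore_of_pPrimeCore_eq_bot (H1.pPrimeCore_quotient_pPrimeCore p G)
    obtain ⟨a, ha⟩ := IsPGroup.iff_card.1 (H1.pCore_isPGroup p (G ⧸ N))
    have hNK : N ≤ (pCore p (G ⧸ N)).comap (QuotientGroup.mk' N) := fun x hx => by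
      rw [mem_comap, QuotientGroup.mk'_apply, (QuotientGroup.eq_one_iff x).2 hx]
      exact one_mem _
    have ha' : N.relIndex ((pCore p (G ⧸ N)).comap (QuotientGroup.mk' N)) = p ^ a := by
      have h2 := H1.card_mul_relIndex hNK
      rw [H1.card_comap_mk', ha] at h2
      exact Nat.eq_of_mul_eq_mul_left Nat.card_pos (h2.trans (by ring))
    have had := le_blockDefect hs N hN hB hχ hθ hinv _ hNK ha'
    have hF0 : fittingSubgroup (G ⧸ N) ≠ ⊥ := fun h0 => by
      have h2 := H2.centralizer_fitting_le (G := G ⧸ N)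
      rw [h0] at h2
      have h3 : Subsingleton (G ⧸ N) := ⟨fun x y => by
        rw [mem_bot.1 (h2 (show x ∈ _ by simp [mem_centralizer_iff])),
          mem_bot.1 (h2 (show y ∈ _ by simp [mem_centralizer_iff]))]⟩
      have h4 : N = ⊤ := QuotientGroup.subsingleton_iff.1 h3
      have h5 := minDeg_add_blockDefect (p := p) ⟨χ, hχ⟩
      rw [h4, card_top] at hN
      rw [Nat.factorization_eq_zero_of_not_dvd hN] at h5
      omega
    have h2 := kbound (G ⧸ N) inferInstance 1 (chain_one hF0)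
    rw [hF, ha, gg_prime_pow hp] at h2
    have h3 : 3 ^ a * p ^ a ≤ 3 ^ blockDefect p B * p ^ blockDefect p B :=
      Nat.mul_le_mul (Nat.pow_le_pow_right (by norm_num) had) (Nat.pow_le_pow_right hp.pos had)
    obtain ⟨d, hd'⟩ : ∃ d, blockDefect p B = d + 1 := ⟨_, (Nat.succ_pred_eq_of_pos hd).symm⟩
    rw [hd'] at h3 ⊢
    rw [pow_succ 3 d] at h3
    rw [Nat.add_sub_cancel]
    nlinarith
  · obtain ⟨b, hb, h1, h2⟩ := fong_reynolds N hN hB hχ hθ
    rw [← h2]
    exact h1.trans (ih _ (hn ▸ H1.card_lt_of_ne_top hT) inferInstance hb (h2 ▸ hd) rfl)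

end Cfsg.Agent.KB
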