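import Cfsg.Agent.Lib.KB.Defs
import Cfsg.Agent.Lib.FT.BG01

/-!
# The order of a solvable permutation group of degree `t` is at most `3 ^ (t - 1)`
-/

set_option autoImplicit false

namespace Cfsg.Agent.KB

open Cfsg Subgroup MulAction

theorem perm_num {p m : ℕ} (hp : p.Prime) (hm : 0 < m) :
    p ^ m * (∏ i ∈ Finset.range m, (p ^ m - p ^ i)) * 3 ≤ 3 ^ p ^ m := by
  have h0 : p ^ m * (∏ i ∈ Finset.range m, (p ^ m - p ^ i)) ≤ p ^ (m * (m + 1)) := by
    rw [pow_mul, pow_succ']
    refine Nat.mul_le_mul_left _ ((Finset.prod_le_pow_card _ _ (p ^ m)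
      fun i _ => Nat.sub_le _ _).trans ?_)
    rw [Finset.card_range]
  rcases hp.eq_two_or_odd' with rfl | hodd
  · by_cases h5 : m < 5
    · interval_cases m <;> simp [Finset.prod_range_succ]
    have h1 : ∀ k, (k + 5) * (k + 5 + 1) + 1 ≤ 2 ^ (k + 5) := fun k => by
      have h2 : ∀ k, 2 * (k + 6) ≤ 2 ^ (k + 5) := fun k => by
        induction k with
        | zero => norm_num
        | succ k ih => rw [show k + 1 + 5 = k + 5 + 1 by ring, pow_succ]; omega
      induction k with
      | zero => norm_num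
      | succ k ih =>
        rw [show k + 1 + 5 = k + 5 + 1 by ring, pow_succ]
        nlinarith [h2 k]
    obtain ⟨k, rfl⟩ : ∃ k, m = k + 5 := ⟨m - 5, by omega⟩
    refine (Nat.mul_le_mul_right 3 (h0.trans (Nat.pow_le_pow_left (by norm_num : 2 ≤ 3) _))).trans ?_
    rw [← pow_succ]
    exact Nat.pow_le_pow_right (by norm_num) (h1 k)
  · have h3 : 3 ≤ p := by
      have := hp.two_le
      obtain ⟨k, rfl⟩ := hodd
      omega
    have h1 : ∀ k, (k + 3) ^ 3 ≤ 3 ^ (k + 3) := fun k => by
      induction k with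
      | zero => norm_num
      | succ k ih =>
        rw [show k + 1 + 3 = k + 3 + 1 by ring, pow_succ 3]
        nlinarith [Nat.zero_le k, Nat.zero_le (k ^ 2), Nat.zero_le (k ^ 3)]
    have h2 : ∀ k, (k + 1) * (k + 1 + 1) + 1 ≤ 3 ^ (k + 1) := fun k => by
      induction k with
      | zero => norm_num
      | succ k ih =>
        rw [pow_succ 3]
        nlinarith [Nat.zero_le k]
    obtain ⟨k, rfl⟩ : ∃ k, m = k + 1 := ⟨m - 1, by omega⟩
    have h4 : p ^ 3 ≤ 3 ^ p := by
      obtain ⟨j, rfl⟩ : ∃ j, p = j + 3 := ⟨p - 3, by omega⟩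
      exact h1 j
    have h5 : p * ((k + 1) * (k + 1 + 1)) + 3 ≤ p ^ (k + 1) * 3 := by
      have h6 : 3 ^ k ≤ p ^ k := Nat.pow_le_pow_left h3 k
      have h7 := h2 k
      rw [pow_succ] at h7 ⊢
      nlinarith
    refine (Nat.mul_le_mul_right 3 h0).trans ((Nat.pow_le_pow_iff_left (n := 3) (by norm_num)).1 ?_)
    rw [mul_pow, ← pow_mul, mul_comm _ 3, pow_mul, ← pow_mul 3]
    refine le_trans ?_ (Nat.pow_le_pow_right (by norm_num) h5)
    rw [pow_add, pow_mul 3]
    exact Nat.mul_le_mul_right _ (Nat.pow_le_pow_left h4 _)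

universe v in
theorem perm_aux (n : ℕ) : ∀ {X Ω : Type v} [Group X] [Finite X] [MulAction X Ω] [Finite Ω]
    [Nonempty Ω] [FaithfulSMul X Ω], Group.IsSolvable X → Nat.card Ω = n →
    Nat.card X * 3 ≤ 3 ^ Nat.card Ω := by
  induction n using Nat.strong_induction_on with
  | _ n ih =>
  intro X Ω _ _ _ _ _ _ hs hn
  classical
  have gen : ∀ {Y Λ : Type v} [Group Y] [Finite Y] [MulAction Y Λ] [Finite Λ] [Nonempty Λ],
      Group.IsSolvable Y → Nat.card Λ < n → (toPermHom Y Λ).ker.index * 3 ≤ 3 ^ Nat.card Λ := by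
    intro Y Λ _ _ _ _ _ hY hΛ
    rw [index_ker]
    exact ih _ hΛ (Group.isSolvable_of_surjective (toPermHom Y Λ).rangeRestrict_surjective) rfl
  rcases eq_or_ne (⊤ : Subgroup X) ⊥ with h | h
  · rw [← card_top, h, card_bot, one_mul]
    exact Nat.le_self_pow Nat.card_pos.ne' 3
  obtain ⟨N, hN, hN0, -, -, hcomm, p, hp, pN, hexp⟩ := H2.exists_minimal_normal_pgroup ⊤ h
  have := Fact.mk hp
  by_cases ht : IsPretransitive N Ω
  · obtain ⟨ω⟩ := ‹Nonempty Ω›
    have hfix : ∀ c ∈ centralizer (N : Set X), c • ω = ω → c = 1 := fun c hc h1 =>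
      eq_of_smul_eq_smul (α := Ω) fun w => by
        obtain ⟨k, rfl⟩ := exists_smul_eq N ω w
        rw [one_smul, Subgroup.smul_def, ← mul_smul, ← hc k k.2, mul_smul, h1]
    have hNC : N ≤ centralizer (N : Set X) := le_centralizer N
    have hcard : Nat.card N = Nat.card Ω :=
      Nat.card_congr (Equiv.ofBijective (fun k : N => k • ω) ⟨fun a b e => by
        have := hfix (b⁻¹ * a) (hNC (b⁻¹ * a).2) (by
          rw [mul_smul, Subgroup.coe_inv, inv_smul_eq_iff]; exact e)
        exact Subtype.ext (inv_mul_eq_one.1 this).symm, exists_smul_eq N ω⟩)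
    have hker : (MulAut.conjNormal (H := N)).ker ≤ N := fun c hc => by
      obtain ⟨k, hk⟩ := exists_smul_eq N ω (c • ω)
      have hc' : c ∈ centralizer (N : Set X) := fun y hy => by
        have := congrArg Subtype.val (DFunLike.congr_fun (MonoidHom.mem_ker.1 hc) ⟨y, hy⟩)
        simp only [MulAut.conjNormal_apply, MulAut.one_apply] at this
        rw [← mul_inv_eq_iff_eq_mul.1 this]
      have := hfix (k⁻¹ * c) (mul_mem (hNC k⁻¹.2) hc') (by
        rw [mul_smul, Subgroup.coe_inv, inv_smul_eq_iff]; exact hk.symm)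
      rw [← inv_mul_eq_one.1 this]
      exact k.2
    obtain ⟨m, hm⟩ := IsPGroup.iff_card.1 pN
    have hm0 : 0 < m := Nat.pos_of_ne_zero fun h0 => hN0 (card_eq_one.1 (by rw [hm, h0, pow_zero]))
    have hA : Nat.card (MulAut N) = ∏ i ∈ Finset.range m, (p ^ m - p ^ i) := by
      open scoped IsMulCommutative in
      exact FT.card_mulAut_of_elem (E := N) hp (fun x => Subtype.ext (hexp x x.2)) hm
    rw [← hcard, hm]
    refine le_trans (Nat.mul_le_mul_right 3 ?_) (perm_num hp hm0)
    rw [← hA, ← hm, ← (MulAut.conjNormal (H := N)).ker.card_mul_index, index_ker]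
    exact Nat.mul_le_mul (card_le_of_le hker) (card_le_card_group _)
  · let _ : MulAction X (orbitRel.Quotient N Ω) :=
      { smul := fun x => Quotient.map' (x • ·) fun a b ⟨k, hk⟩ =>
          ⟨⟨x * k * x⁻¹, hN.conj_mem _ k.2 x⟩, by
            simp only [← hk, Subgroup.smul_def, mul_smul, inv_smul_smul]⟩
        one_smul := fun i => Quotient.inductionOn' i fun w => congrArg Quotient.mk'' (one_smul X w)
        mul_smul := fun x y i => Quotient.inductionOn' i fun w =>
          congrArg Quotient.mk'' (mul_smul x y w) }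
    have := Fintype.ofFinite (orbitRel.Quotient N Ω)
    have : Nonempty (orbitRel.Quotient N Ω) := ‹Nonempty Ω›.map Quotient.mk''
    set K := (toPermHom X (orbitRel.Quotient N Ω)).ker with hK
    have h1 : K.index * 3 ≤ 3 ^ Nat.card (orbitRel.Quotient N Ω) := by
      have := Fintype.ofFinite Ω
      refine gen hs ?_
      rw [← hn, Nat.card_eq_fintype_card, Nat.card_eq_fintype_card]
      refine Fintype.card_lt_of_surjective_not_injective Quotient.mk''
        Quotient.mk''_surjective fun hi => hN0 (eq_bot_iff.2 fun k hk => mem_bot.2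
          (eq_of_smul_eq_smul (α := Ω) fun w => ?_))
      rw [one_smul]
      exact hi (Quotient.sound' ⟨⟨k, hk⟩, rfl⟩)
    let F : orbitRel.Quotient N Ω → Type v := fun i => {w : Ω // Quotient.mk'' w = i}
    let act : ∀ i, MulAction K (F i) := fun i =>
      { smul := fun k w => ⟨(k : X) • w.1, by
          have := DFunLike.congr_fun (MonoidHom.mem_ker.1 k.2) (Quotient.mk'' w.1)
          exact this.trans w.2⟩
        one_smul := fun w => Subtype.ext (one_smul X w.1)
        mul_smul := fun x y w => Subtype.ext (mul_smul (x : X) y w.1) }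
    have h2 : ∀ i, (toPermHom K (F i)).ker.index * 3 ≤ 3 ^ Nat.card (F i) := fun i => by
      have : Nonempty (F i) := ⟨⟨i.out, Quotient.out_eq' i⟩⟩
      refine gen inferInstance (hn ▸ Finite.card_subtype_lt (x := ?_) ?_)
      · exact if h : ∃ w : Ω, Quotient.mk'' w ≠ i then h.choose else Classical.arbitrary Ω
      · have h3 : ∃ w : Ω, Quotient.mk'' w ≠ i := by
          by_contra h3
          push Not at h3
          exact ht ⟨fun a b => Quotient.exact' ((h3 b).trans (h3 a).symm)⟩
        rw [dif_pos h3]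
        exact h3.choose_spec
    have h3 : (⨅ i, (toPermHom K (F i)).ker) = ⊥ := eq_bot_iff.2 fun k hk => mem_bot.2
      (Subtype.ext (eq_of_smul_eq_smul (α := Ω) fun w => by
        have h4 : (k : X) • w = w := congrArg Subtype.val (DFunLike.congr_fun
          (MonoidHom.mem_ker.1 (mem_iInf.1 hk (Quotient.mk'' w))) (⟨w, rfl⟩ : F _))
        rw [h4, OneMemClass.coe_one, one_smul]))
    have h4 := index_iInf_le fun i => (toPermHom K (F i)).ker
    rw [h3, index_bot] at h4
    have h5 := Finset.prod_le_prod' fun i (_ : i ∈ Finset.univ) => h2 i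
    rw [Finset.prod_mul_distrib, Finset.prod_const, Finset.prod_pow_eq_pow_sum, Finset.card_univ,
      ← Nat.card_eq_fintype_card, ← Nat.card_sigma,
      Nat.card_congr (Equiv.sigmaFiberEquiv _)] at h5
    rw [← K.card_mul_index, mul_assoc]
    exact (Nat.mul_le_mul h4 h1).trans h5

theorem perm_bound {X Ω : Type*} [Group X] [Finite X] (hs : Group.IsSolvable X) [MulAction X Ω]
    [Finite Ω] [Nonempty Ω] : (MulAction.toPermHom X Ω).ker.index * 3 ≤ 3 ^ Nat.card Ω := by
  rw [index_ker]
  exact perm_aux _ (Group.isSolvable_of_surjective (toPermHom X Ω).rangeRestrict_surjective) rfl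

end Cfsg.Agent.KB
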