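import Cfsg.Agent.Lib.KB.Count
import Cfsg.Agent.Lib.KB.Perm
import Cfsg.Agent.Lib.H1.Coprime

/-!
# Case C1: an abelian normal subgroup of `X / W` that is not semiregular
-/

set_option autoImplicit false

namespace Cfsg.Agent.KB

open Cfsg Subgroup
open scoped commutatorElement Pointwise

universe u

theorem exists_chain_of_indep {α ι : Type*} [SemilatticeSup α] [OrderBot α] [DecidableEq ι]
    (R : α → Prop) (h0 : R ⊥) (hsup : ∀ a b, R a → R b → R (a ⊔ b)) (U : ι → α)
    (hU : ∀ i, R (U i)) (hind : ∀ (S : Finset ι) (i : ι), i ∉ S → ¬ U i ≤ S.sup U)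
    (S : Finset ι) :
    ∃ f : ℕ → α, (∀ i, R (f i)) ∧ (∀ i < S.card, f i < f (i + 1)) ∧ f S.card = S.sup U := by
  induction S using Finset.induction_on with
  | empty => exact ⟨fun _ => ⊥, fun _ => h0, fun _ h => absurd h (Nat.not_lt_zero _), rfl⟩
  | insert j S hj ih =>
    obtain ⟨f, h1, h2, h3⟩ := ih
    rw [Finset.card_insert_of_notMem hj, Finset.sup_insert]
    refine ⟨fun i => if i ≤ S.card then f i else U j ⊔ S.sup U, fun i => ?_, fun i hi => ?_, ?_⟩
    · dsimp only
      split_ifs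
      · exact h1 i
      · exact hsup _ _ (hU j) (h3 ▸ h1 _)
    · dsimp only
      rw [if_pos (by omega)]
      split_ifs with h
      · exact h2 i (by omega)
      · obtain rfl : i = S.card := by omega
        rw [h3]
        exact lt_of_le_of_ne le_sup_right fun h => hind S j hj (h ▸ le_sup_left)
    · simp

section

variable {X : Type*} [Group X] {W A : Subgroup X}

/-- the subgroups between `W` and `A` with a nontrivial fixed point on `W` -/
def Fx (W A B : Subgroup X) : Prop := W ≤ B ∧ B ≤ A ∧ W ⊓ centralizer (B : Set X) ≠ ⊥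

theorem Fx.conj [W.Normal] [A.Normal] {B : Subgroup X} (h : Fx W A B) (g : X) :
    Fx W A (MulAut.conj g • B) := by
  refine ⟨fun w hw => ?_, fun x hx => ?_, fun h0 => h.2.2 (eq_bot_iff.2 fun w hw => ?_)⟩
  · rw [mem_pointwise_smul_iff_inv_smul_mem]
    exact h.1 (‹W.Normal›.conj_mem' w hw g)
  · rw [mem_pointwise_smul_iff_inv_smul_mem] at hx
    simpa [mul_assoc] using ‹A.Normal›.conj_mem _ (h.2.1 hx) g
  · have h1 : g * w * g⁻¹ ∈ W ⊓ centralizer ((MulAut.conj g • B : Subgroup X) : Set X) := by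
      refine ⟨‹W.Normal›.conj_mem w hw.1 g, mem_centralizer_iff.2 fun x hx => ?_⟩
      have h2 := mem_centralizer_iff.1 hw.2 _ (mem_pointwise_smul_iff_inv_smul_mem.1 hx)
      simp only [MulAut.smul_def, MulAut.conj_inv_apply] at h2
      calc x * (g * w * g⁻¹) = g * (g⁻¹ * x * g * w) * g⁻¹ := by group
        _ = g * w * g⁻¹ * x := by rw [h2]; group
    rw [h0, mem_bot] at h1
    simpa using h1

theorem max_conj [W.Normal] [A.Normal] {B : Subgroup X} (h : Maximal (Fx W A) B) (g : X) :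
    Maximal (Fx W A) (MulAut.conj g • B) := by
  refine ⟨h.1.conj g, fun B' hB' hle => ?_⟩
  have h1 := h.2 (hB'.conj g⁻¹) (by
    rw [map_inv]; exact pointwise_smul_subset_iff.1 hle)
  rw [map_inv] at h1
  exact subset_pointwise_smul_iff.2 h1

theorem indep [W.Normal] [IsMulCommutative W] (hA : ⁅A, A⁆ ≤ W)
    (S : Finset {B // Maximal (Fx W A) B}) (B : {B // Maximal (Fx W A) B}) (hB : B ∉ S) :
    W ⊓ centralizer (B.1 : Set X) ⊓ S.sup (fun B' => W ⊓ centralizer (B'.1 : Set X)) = ⊥ := by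
  classical
  have hW : ∀ u ∈ W, ∀ v ∈ W, u * v = v * u := fun u hu v hv =>
    mem_centralizer_iff.1 (le_centralizer W hv) u hu
  induction S using Finset.induction_on with
  | empty => simp
  | insert B' S hj ih =>
    rw [Finset.mem_insert, not_or] at hB
    obtain ⟨b, hb, hbB⟩ : ∃ b ∈ B'.1, b ∉ B.1 := by
      by_contra h
      push Not at h
      exact hB.1 (Subtype.ext (le_antisymm (B'.2.2 B.2.1 h) h))
    have hbA := B'.2.1.2.1 hb
    obtain ⟨T, hT⟩ : ∃ T : Subgroup X → Subgroup X,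
        ∀ U w, w ∈ T U ↔ w ∈ W ∧ b * w * b⁻¹ * w⁻¹ ∈ U := by
      refine ⟨fun U =>
        { carrier := {w | w ∈ W ∧ b * w * b⁻¹ * w⁻¹ ∈ U}
          mul_mem' := fun {u v} hu hv => ⟨W.mul_mem hu.1 hv.1, ?_⟩
          one_mem' := ⟨W.one_mem, by simp⟩
          inv_mem' := fun {u} hu => ⟨W.inv_mem hu.1, ?_⟩ }, fun _ _ => Iff.rfl⟩
      · have h1 := hW _ (W.inv_mem hu.1) _
          (W.mul_mem (‹W.Normal›.conj_mem _ hv.1 b) (W.inv_mem hv.1))
        have : b * (u * v) * b⁻¹ * (u * v)⁻¹ = b * u * b⁻¹ * u⁻¹ * (b * v * b⁻¹ * v⁻¹) := by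
          rw [mul_assoc _ u⁻¹, h1]; group
        rw [this]
        exact U.mul_mem hu.2 hv.2
      · have h1 := hW _ hu.1 _ (‹W.Normal›.conj_mem _ (W.inv_mem hu.1) b)
        have : b * u⁻¹ * b⁻¹ * u⁻¹⁻¹ = (b * u * b⁻¹ * u⁻¹)⁻¹ := by
          rw [inv_inv, ← h1]; group
        rw [this]
        exact U.inv_mem hu.2
    have hpres : ∀ C : {B // Maximal (Fx W A) B},
        W ⊓ centralizer (C.1 : Set X) ≤ T (W ⊓ centralizer (C.1 : Set X)) := by
      intro C w hw
      rw [hT]
      refine ⟨hw.1, mul_mem ⟨‹W.Normal›.conj_mem _ hw.1 b, mem_centralizer_iff.2 fun y hy => ?_⟩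
        (inv_mem hw)⟩
      have h1 : b⁻¹ * y * b ∈ C.1 := by
        have h2 : b⁻¹ * y * b = ⁅b⁻¹, y⁆ * y := by rw [commutatorElement_def]; group
        rw [h2]
        exact C.1.mul_mem (C.2.1.1 (hA (commutator_mem_commutator (A.inv_mem hbA)
          (C.2.1.2.1 hy)))) hy
      have h2 := mem_centralizer_iff.1 hw.2 _ h1
      calc y * (b * w * b⁻¹) = b * (b⁻¹ * y * b * w) * b⁻¹ := by group
        _ = b * w * b⁻¹ * y := by rw [h2]; group
    have hsup : (insert B' S).sup (fun C => W ⊓ centralizer (C.1 : Set X)) ≤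
        T (S.sup fun C => W ⊓ centralizer (C.1 : Set X)) := by
      rw [Finset.sup_insert]
      refine sup_le (fun w hw => ?_) (Finset.sup_le fun C hC w hw => ?_)
      · rw [hT]
        refine ⟨hw.1, ?_⟩
        rw [mem_centralizer_iff.1 hw.2 b hb]
        simp
      · have h1 := (hT _ _).1 (hpres C hw)
        exact (hT _ _).2 ⟨h1.1, (Finset.le_sup (f := fun C : {B // Maximal (Fx W A) B} =>
          W ⊓ centralizer (C.1 : Set X)) hC) h1.2⟩
    refine eq_bot_iff.2 fun w hw => ?_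
    have h1 : b * w * b⁻¹ * w⁻¹ ∈ W ⊓ centralizer (B.1 : Set X) ⊓
        S.sup (fun B' => W ⊓ centralizer (B'.1 : Set X)) :=
      ⟨((hT _ _).1 (hpres B hw.1)).2, ((hT _ _).1 (hsup hw.2)).2⟩
    rw [ih hB.2, mem_bot, mul_inv_eq_one, mul_inv_eq_iff_eq_mul] at h1
    by_contra hw1
    refine hbB (B.2.2 (y := A ⊓ centralizer {w}) ⟨fun u hu => ⟨B.2.1.2.1 (B.2.1.1 hu),
      mem_centralizer_singleton_iff.2 (hW _ hu _ hw.1.1)⟩, inf_le_left, fun h0 => hw1 ?_⟩
      (fun y hy => ⟨B.2.1.2.1 hy, mem_centralizer_singleton_iff.2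
        (mem_centralizer_iff.1 hw.1.2 y hy)⟩) ⟨hbA, mem_centralizer_singleton_iff.2 h1⟩)
    rw [← h0]
    exact ⟨hw.1.1, mem_centralizer_iff.2 fun y hy => mem_centralizer_singleton_iff.1 hy.2⟩

end

theorem caseC1 {X : Type u} [Group X] [Finite X] (hs : Group.IsSolvable X)
    (ih : IH.{u} (Nat.card X)) (W : Subgroup X) [W.Normal]
    (hmin : ∀ M : Subgroup X, M.Normal → M ≤ W → M = ⊥ ∨ M = W)
    (hself : centralizer (W : Set X) = W) {A : Subgroup X} [A.Normal] (hWA : W ≤ A)
    (hA : ⁅A, A⁆ ≤ W) {a w : X} (ha : a ∈ A) (haW : a ∉ W) (hw : w ∈ W) (hw1 : w ≠ 1)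
    (haw : a * w = w * a) : kk X * 3 ≤ gg (Nat.card W) := by
  classical
  have hcomm : IsMulCommutative W := le_centralizer_iff_isMulCommutative.1 hself.ge
  have hW : ∀ u ∈ W, ∀ v ∈ W, u * v = v * u := fun u hu v hv =>
    mem_centralizer_iff.1 (le_centralizer W hv) u hu
  have hF : fittingSubgroup X = W :=
    le_antisymm (hself ▸ fitting_le_centralizer W hmin) (le_fitting_of_comm W)
  obtain ⟨B₁, hB₁, hmax⟩ := Finite.exists_le_maximal (p := Fx W A) (a := A ⊓ centralizer {w})
    ⟨fun u hu => ⟨hWA hu, mem_centralizer_singleton_iff.2 (hW _ hu _ hw)⟩, inf_le_left,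
      fun h0 => hw1 (by
        rw [← mem_bot, ← h0]
        exact ⟨hw, mem_centralizer_iff.2 fun y hy => mem_centralizer_singleton_iff.1 hy.2⟩)⟩
  let _ : MulAction X {B // Maximal (Fx W A) B} :=
    { smul := fun g B => ⟨MulAut.conj g • B.1, max_conj B.2 g⟩
      one_smul := fun B => Subtype.ext (by
        change MulAut.conj (1 : X) • B.1 = B.1
        rw [map_one, one_smul])
      mul_smul := fun g h B => Subtype.ext (by
        change MulAut.conj (g * h) • B.1 = MulAut.conj g • MulAut.conj h • B.1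
        rw [map_mul, mul_smul]) }
  have : Nonempty {B // Maximal (Fx W A) B} := ⟨⟨B₁, hmax⟩⟩
  have := Fintype.ofFinite {B // Maximal (Fx W A) B}
  have hp := perm_bound (X := X) (Ω := {B // Maximal (Fx W A) B}) hs
  set K := (MulAction.toPermHom X {B // Maximal (Fx W A) B}).ker with hK
  have hKn : ∀ B : {B // Maximal (Fx W A) B}, K ≤ normalizer (B.1 : Set X) := by
    intro B g hg
    have h1 : MulAut.conj g • B.1 = B.1 :=
      congrArg Subtype.val (congrArg (fun σ : Equiv.Perm _ => σ B) (MonoidHom.mem_ker.1 hg))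
    rw [mem_normalizer_iff]
    intro x
    conv_rhs => rw [← h1, mem_pointwise_smul_iff_inv_smul_mem]
    simp [mul_assoc]
  have hWK : W ≤ K := by
    intro u hu
    refine MonoidHom.mem_ker.2 (Equiv.ext fun B => Subtype.ext ?_)
    exact conj_smul_eq_self_of_mem (B.2.1.1 hu)
  have hcn : ∀ B : {B // Maximal (Fx W A) B},
      K ≤ normalizer ((W ⊓ centralizer (B.1 : Set X) : Subgroup X) : Set X) := by
    intro B
    refine le_trans (le_inf (le_normalizer_of_normal (H := W))
      ((hKn B).trans (H1.normalizer_le_normalizer_centralizer _))) ?_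
    exact inf_normalizer_le_normalizer_inf
  have hlt : Nat.card K < Nat.card X := by
    refine lt_of_le_of_ne (card_le_card_group K) fun h => haW ?_
    have h1 := hcn ⟨B₁, hmax⟩
    rw [eq_top_of_card_eq K h, top_le_iff, normalizer_eq_top_iff] at h1
    have h2 := (hmin _ h1 inf_le_left).resolve_left hmax.1.2.2
    rw [inf_eq_left, le_centralizer_iff, hself] at h2
    exact h2 (hB₁ ⟨ha, mem_centralizer_singleton_iff.2 haw⟩)
  obtain ⟨f, h1, h2, -⟩ := exists_chain_of_indep
    (fun U : Subgroup X => U ≤ W ∧ K ≤ normalizer (U : Set X)) ⟨bot_le, le_normalizer_of_normal⟩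
    (fun U V hU hV => ⟨sup_le hU.1 hV.1, (le_inf hU.2 hV.2).trans
      (normalizer_inf_normalizer_le_normalizer_sup U V)⟩)
    (fun B : {B // Maximal (Fx W A) B} => W ⊓ centralizer (B.1 : Set X))
    (fun B => ⟨inf_le_left, hcn B⟩)
    (fun S B hB h => B.2.1.2.2 (by rw [← indep hA S B hB, inf_eq_left.2 h])) Finset.univ
  have hFK : fittingSubgroup K = W.subgroupOf K := by
    apply map_injective K.subtype_injective
    rw [H1.map_subtype_fittingSubgroup_eq, subgroupOf_map_subtype, hF]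
  have h3 := ih K inferInstance hlt (Finset.univ : Finset {B // Maximal (Fx W A) B}).card
    ⟨fun i => (f i).subgroupOf K, fun i => normal_subgroupOf_of_le_normalizer (h1 i).2,
      fun i hi => lt_of_le_of_ne (comap_mono (h2 i hi).le) fun h => (h2 i hi).ne (by
        have := congrArg (map K.subtype) h
        simpa only [subgroupOf_map_subtype, inf_eq_left.2 ((h1 _).1.trans hWK)] using this),
      hFK ▸ comap_mono (h1 _).1⟩
  rw [hFK, Nat.card_congr (subgroupOfEquivOfLe hWK).toEquiv, Finset.card_univ,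
    ← Nat.card_eq_fintype_card] at h3
  calc kk X * 3 ≤ K.index * kk K * 3 := Nat.mul_le_mul_right _ (kk_le_index_mul K)
    _ = kk K * (K.index * 3) := by ring
    _ ≤ _ := (Nat.mul_le_mul_left _ hp).trans h3

end Cfsg.Agent.KB
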