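import Cfsg.Agent.Lib.KB.Defs

/-!
# Elementary inequalities for class numbers
-/

set_option autoImplicit false

namespace Cfsg.Agent.KB

open Cfsg Subgroup

variable {G : Type*} [Group G] [Finite G]

theorem kk_le_card : kk G ≤ Nat.card G := by
  exact Nat.card_le_card_of_surjective _ ConjClasses.mk_surjective

theorem kk_pos : 0 < kk G := by
  have : Nonempty (ConjClasses G) := ⟨1⟩
  exact Nat.card_pos

theorem kk_congr {H : Type*} [Group H] (e : G ≃* H) : kk G = kk H :=
  H4.card_conjClasses_congr e

theorem kk_le_of_surjective {H : Type*} [Group H] (f : G →* H) (hf : Function.Surjective f) :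
    kk H ≤ kk G := by
  exact Nat.card_le_card_of_surjective _ (ConjClasses.map_surjective hf)

theorem card_eq_relIndex_mul (H C : Subgroup G) :
    Nat.card C = H.relIndex C * Nat.card (H ⊓ C : Subgroup G) := by
  rw [relIndex, ← index_mul_card (H.subgroupOf C), ← inf_subgroupOf_right,
    Nat.card_congr (subgroupOfEquivOfLe (inf_le_right : H ⊓ C ≤ C)).toEquiv]

theorem sum_card_inf_centralizer (H : Subgroup G) [Fintype H] :
    ∑ h : H, Nat.card (H ⊓ centralizer ({(h : G)} : Set G) : Subgroup G) = kk H * Nat.card H := by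
  rw [← H4.sum_card_centralizer H]
  refine Finset.sum_congr rfl fun h _ => ?_
  rw [inf_comm, ← Nat.card_congr (subgroupOfEquivOfLe
    (inf_le_right : centralizer ({(h : G)} : Set G) ⊓ H ≤ H)).toEquiv, inf_subgroupOf_right]
  congr 2
  ext a
  rw [mem_subgroupOf, mem_centralizer_singleton_iff, mem_centralizer_singleton_iff,
    Subtype.ext_iff]
  rfl

open Classical in
theorem sum_swap_centralizer (H : Subgroup G) [Fintype H] (S : Finset G) :
    ∑ g ∈ S, Nat.card (H ⊓ centralizer ({g} : Set G) : Subgroup G) =
      ∑ h : H, (S.filter fun g : G => g * h = h * g).card := by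
  simp only [Finset.card_filter]
  rw [Finset.sum_comm]
  refine Finset.sum_congr rfl fun g _ => ?_
  rw [← Finset.card_filter, ← Fintype.card_subtype, ← Nat.card_eq_fintype_card]
  refine Nat.card_congr ⟨fun x => ⟨⟨x, x.2.1⟩, (mem_centralizer_singleton_iff.1 x.2.2).symm⟩,
    fun x => ⟨x.1, x.1.2, mem_centralizer_singleton_iff.2 x.2.symm⟩, fun _ => rfl, fun _ => rfl⟩

theorem kk_le_index_mul (H : Subgroup G) : kk G ≤ H.index * kk H := by
  classical
  have := Fintype.ofFinite G
  have := Fintype.ofFinite H
  have h1 : ∀ C : Subgroup G, Nat.card C ≤ H.index * Nat.card (H ⊓ C : Subgroup G) := fun C => by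
    rw [card_eq_relIndex_mul H C]
    refine Nat.mul_le_mul_right _ ?_
    rw [← relIndex_top_right]
    exact relIndex_le_of_le_right le_top (by rw [relIndex_top_right]; exact index_ne_zero_of_finite)
  have h2 : ∀ h : H, (Finset.univ.filter fun g : G => g * h = h * g).card =
      Nat.card (centralizer ({(h : G)} : Set G)) := fun h => by
    rw [← Fintype.card_subtype, ← Nat.card_eq_fintype_card]
    exact Nat.card_congr (Equiv.subtypeEquivRight fun x => mem_centralizer_singleton_iff.symm)
  have h3 : kk G * Nat.card G ≤ H.index * (H.index * (kk H * Nat.card H)) := by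
    rw [← H4.sum_card_centralizer G, ← sum_card_inf_centralizer H]
    refine (Finset.sum_le_sum fun g _ => h1 _).trans ?_
    rw [← Finset.mul_sum, sum_swap_centralizer]
    refine Nat.mul_le_mul_left _ ?_
    rw [Finset.mul_sum]
    refine Finset.sum_le_sum fun h _ => ?_
    rw [h2]
    exact h1 _
  refine Nat.le_of_mul_le_mul_right (c := Nat.card G) (h3.trans (le_of_eq ?_)) Nat.card_pos
  rw [← H.index_mul_card]
  ring

theorem kk_le_mul_quot (N : Subgroup G) [N.Normal] : kk G ≤ kk N * kk (G ⧸ N) := by
  classical
  have := Fintype.ofFinite G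
  have := Fintype.ofFinite N
  have := Fintype.ofFinite (G ⧸ N)
  have h1 : ∀ g : G, Nat.card (centralizer ({g} : Set G)) ≤
      Nat.card (centralizer ({(g : G ⧸ N)} : Set (G ⧸ N))) *
        Nat.card (N ⊓ centralizer ({g} : Set G) : Subgroup G) := fun g => by
    rw [card_eq_relIndex_mul N]
    refine Nat.mul_le_mul_right _ ?_
    have h := relIndex_ker (centralizer ({g} : Set G)) (QuotientGroup.mk' N)
    rw [QuotientGroup.ker_mk'] at h
    rw [h]
    refine card_le_of_le ?_
    rintro _ ⟨x, hx, rfl⟩
    rw [mem_centralizer_singleton_iff]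
    have hx' := mem_centralizer_singleton_iff.1 hx
    exact congrArg (QuotientGroup.mk' N) hx'
  have h2 : ∀ (q : G ⧸ N) (n : N),
      ((Finset.univ.filter fun g : G => (g : G ⧸ N) = q).filter fun g : G => g * n = n * g).card ≤
        Nat.card (N ⊓ centralizer ({(n : G)} : Set G) : Subgroup G) := fun q n => by
    rcases Finset.eq_empty_or_nonempty
      ((Finset.univ.filter fun g : G => (g : G ⧸ N) = q).filter fun g : G => g * n = n * g) with h | h
    · rw [h]; exact Nat.zero_le _
    obtain ⟨x, hx⟩ := h
    simp only [Finset.mem_filter, Finset.mem_univ, true_and] at hx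
    rw [← Nat.card_eq_finsetCard]
    refine Nat.card_le_card_of_injective (fun g => ⟨x⁻¹ * g.1, ?_, ?_⟩) ?_
    · have hg := g.2
      simp only [Finset.mem_filter, Finset.mem_univ, true_and] at hg
      exact QuotientGroup.eq.1 (hx.1.trans hg.1.symm)
    · have hg := g.2
      simp only [Finset.mem_filter, Finset.mem_univ, true_and] at hg
      exact (centralizer ({(n : G)} : Set G)).mul_mem
        ((centralizer ({(n : G)} : Set G)).inv_mem (mem_centralizer_singleton_iff.2 hx.2))
        (mem_centralizer_singleton_iff.2 hg.2)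
    · intro a b hab
      exact Subtype.ext (mul_left_cancel (congrArg Subtype.val hab))
  have h3 : kk G * Nat.card G ≤ (kk (G ⧸ N) * Nat.card (G ⧸ N)) * (kk N * Nat.card N) := by
    rw [← H4.sum_card_centralizer G, ← H4.sum_card_centralizer (G ⧸ N),
      ← Finset.sum_fiberwise_of_maps_to (s := Finset.univ) (t := Finset.univ)
        (g := fun g : G => (g : G ⧸ N)) (fun _ _ => Finset.mem_univ _), Finset.sum_mul]
    refine Finset.sum_le_sum fun q _ => ?_
    refine (Finset.sum_le_sum fun g _ => h1 g).trans ?_
    rw [Finset.sum_congr rfl (g := fun g => Nat.card (centralizer ({q} : Set (G ⧸ N))) *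
      Nat.card (N ⊓ centralizer ({g} : Set G) : Subgroup G)) fun g hg => by
        rw [(Finset.mem_filter.1 hg).2], ← Finset.mul_sum, sum_swap_centralizer,
      ← sum_card_inf_centralizer]
    refine Nat.mul_le_mul_left _ (Finset.sum_le_sum fun n _ => ?_)
    convert h2 q n
  refine Nat.le_of_mul_le_mul_right (c := Nat.card G) (h3.trans (le_of_eq ?_)) Nat.card_pos
  rw [card_eq_card_quotient_mul_card_subgroup N]
  ring

theorem kk_le_ker_mul {H : Type*} [Group H] (f : G →* H) (hf : Function.Surjective f) :
    kk G ≤ kk f.ker * kk H := by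
  rw [← kk_congr (QuotientGroup.quotientKerEquivOfSurjective f hf)]
  exact kk_le_mul_quot _

end Cfsg.Agent.KB
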