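import Cfsg.Agent.Lib.KB.Defs
import Cfsg.Agent.Lib.Lead.Knorr2

/-!
# Weight vectors over the algebraic closure
-/

set_option autoImplicit false

namespace Cfsg.Agent.KB

open Cfsg Subgroup
open scoped commutatorElement

theorem exists_common_eigen {k V ι : Type*} [Field k] [IsAlgClosed k] [AddCommGroup V] [Module k V]
    [FiniteDimensional k V] [Nontrivial V] (f : ι → Module.End k V)
    (hc : ∀ i j, f i * f j = f j * f i) : ∃ v : V, v ≠ 0 ∧ ∀ i, ∃ c : k, f i v = c • v := by
  obtain ⟨S, ⟨hS0, hS⟩, hmin⟩ := WellFounded.has_min (wellFounded_lt (α := Submodule k V))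
    {S | S ≠ ⊥ ∧ ∀ i, ∀ v ∈ S, f i v ∈ S} ⟨⊤, top_ne_bot, fun _ _ _ => trivial⟩
  obtain ⟨v, hv, hv0⟩ := Submodule.exists_mem_ne_zero_of_ne_bot hS0
  refine ⟨v, hv0, fun i => ?_⟩
  have : Nontrivial S := Submodule.nontrivial_iff_ne_bot.2 hS0
  obtain ⟨c, hc'⟩ := Module.End.exists_eigenvalue ((f i).restrict (hS i))
  obtain ⟨u, hu⟩ := hc'.exists_hasEigenvector
  have hu1 : f i u = c • (u : V) := congrArg Subtype.val hu.apply_eq_smul
  have h1 : S ⊓ (f i).eigenspace c = S := by
    by_contra h
    refine hmin (S ⊓ (f i).eigenspace c) ⟨fun h0 => hu.2 (Subtype.ext ?_), fun j w hw => ⟨hS j w hw.1, ?_⟩⟩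
      (lt_of_le_of_ne inf_le_left h)
    · have : (u : V) ∈ S ⊓ (f i).eigenspace c := ⟨u.2, Module.End.mem_eigenspace_iff.2 hu1⟩
      rw [h0] at this
      exact this
    · have h2 := Module.End.mem_eigenspace_iff.1 hw.2
      refine Module.End.mem_eigenspace_iff.2 ?_
      rw [← Module.End.mul_apply, hc, Module.End.mul_apply, h2, map_smul]
  exact ⟨c, Module.End.mem_eigenspace_iff.1 (h1.ge hv).2⟩

theorem eq_zero_of_weights {k V ι κ : Type*} [Field k] [AddCommGroup V] [Module k V]
    (f : κ → Module.End k V) (w : ι → κ → k) (hw : Function.Injective w) (s : Finset ι)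
    (u : ι → V) (hu : ∀ i a, f a (u i) = w i a • u i) (h : ∑ i ∈ s, u i = 0) :
    ∀ i ∈ s, u i = 0 := by
  classical
  induction s using Finset.induction_on generalizing u with
  | empty => simp
  | insert j s hj ih =>
    rw [Finset.sum_insert hj] at h
    have h1 : ∀ i ∈ s, u i = 0 := by
      intro i hi
      obtain ⟨a, ha⟩ : ∃ a, w i a ≠ w j a := by
        by_contra h'
        push Not at h'
        exact hj (hw (funext h') ▸ hi)
      have h2 := ih (fun l => (w l a - w j a) • u l)
        (fun l b => by rw [map_smul, hu, smul_comm]) (by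
          have h3 := congrArg (f a) h
          rw [map_add, map_sum, map_zero, hu] at h3
          simp only [hu] at h3
          simp only [sub_smul, Finset.sum_sub_distrib, ← Finset.smul_sum]
          rw [eq_neg_of_add_eq_zero_right h, eq_neg_of_add_eq_zero_right h3, smul_neg, sub_self]) i hi
      exact (smul_eq_zero.1 h2).resolve_left (sub_ne_zero.2 ha)
    intro i hi
    rcases Finset.mem_insert.1 hi with rfl | hi
    · rwa [Finset.sum_eq_zero h1, add_zero] at h
    · exact h1 i hi

theorem exists_closed {F M V : Type*} [Field F] [Group M] [AddCommGroup V] [Module F V]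
    [FiniteDimensional F V] (ρ : Representation F M V) :
    ∃ σ : Representation (AlgebraicClosure F) M (TensorProduct F (AlgebraicClosure F) V),
      ∀ a, (∀ v, ρ a v = v → v = 0) → ∀ v, σ a v = v → v = 0 := by
  refine ⟨(Module.End.baseChangeHom F (AlgebraicClosure F) V).toMonoidHom.comp ρ,
    fun a ha v hv => ?_⟩
  have h1 : IsUnit (ρ a - 1) := by
    rw [LinearMap.isUnit_iff_ker_eq_bot, eq_bot_iff]
    intro v hv
    exact ha v (sub_eq_zero.1 hv)
  have h2 := h1.map (Module.End.baseChangeHom F (AlgebraicClosure F) V)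
  rw [map_sub, map_one, LinearMap.isUnit_iff_ker_eq_bot, eq_bot_iff] at h2
  exact h2 (sub_eq_zero.2 hv)

theorem exists_weight {k M V : Type*} [Field k] [IsAlgClosed k] [Group M] [AddCommGroup V]
    [Module k V] [FiniteDimensional k V] [Nontrivial V] (ρ : Representation k M V)
    {A I : Subgroup M} [IsMulCommutative I]
    (hsr : ∀ a ∈ A, a ≠ 1 → ∀ v, ρ a v = v → v = 0) :
    ∃ (v : V) (μ : M → k), v ≠ 0 ∧ (∀ i ∈ I, ρ i v = μ i • v) ∧
      ∀ y ∈ I, ∀ y' ∈ I, y⁻¹ * y' ∈ A → μ y = μ y' → y = y' := by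
  classical
  obtain ⟨v, hv, h⟩ := exists_common_eigen (fun i : I => ρ i) fun i j => by
    rw [← map_mul, ← map_mul, mem_centralizer_iff.1 (le_centralizer I j.2) _ i.2]
  choose c hc using h
  refine ⟨v, fun g => if h : g ∈ I then c ⟨g, h⟩ else 0, hv, fun i hi => ?_,
    fun y hy y' hy' h1 h2 => ?_⟩
  · dsimp only
    rw [dif_pos hi]; exact hc ⟨i, hi⟩
  · dsimp only at h2
    rw [dif_pos hy, dif_pos hy'] at h2
    by_contra h3
    refine hv (hsr _ h1 (fun h => h3 (inv_mul_eq_one.1 h)) v ?_)
    have h4 : ρ y' v = ρ y v := (hc ⟨y', hy'⟩).trans (h2 ▸ (hc ⟨y, hy⟩).symm)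
    rw [map_mul, Module.End.mul_apply, h4, ← Module.End.mul_apply, ← map_mul, inv_mul_cancel,
      map_one, Module.End.one_apply]

variable {F M V : Type*} [Field F] [Group M] [Finite M] [AddCommGroup V] [Module F V]
  [FiniteDimensional F V] [Nontrivial V]

/-- an abelian group acting semiregularly on the nonzero vectors is cyclic -/
theorem isCyclic_of_semireg (ρ : Representation F M V) (A : Subgroup M) [IsMulCommutative A]
    (hsr : ∀ a ∈ A, ∀ v, ρ a v = v → a = 1 ∨ v = 0) : IsCyclic A := by
  obtain ⟨σ, hσ⟩ := exists_closed ρ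
  have : Nontrivial (TensorProduct F (AlgebraicClosure F) V) :=
    Module.nontrivial_of_finrank_pos (R := AlgebraicClosure F)
      (by rw [Module.finrank_baseChange]; exact Module.finrank_pos)
  obtain ⟨v, μ, hv, h1, h2⟩ := exists_weight σ (A := A) (I := A)
    fun a ha h1 => hσ a fun v hv => (hsr a ha v hv).resolve_left h1
  refine isCyclic_of_injective_ringHom (R := AlgebraicClosure F)
    { toFun := fun a : A => μ a
      map_one' := smul_left_injective _ hv (by
        change μ 1 • v = (1 : AlgebraicClosure F) • v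
        rw [← h1 1 A.one_mem, map_one, one_smul, Module.End.one_apply])
      map_mul' := fun a b => smul_left_injective _ hv (by
        change μ (a * b) • v = (μ a * μ b) • v
        rw [← h1 _ (A.mul_mem a.2 b.2), map_mul, Module.End.mul_apply, h1 b b.2, map_smul,
          h1 a a.2, smul_smul, mul_comm]) } fun a b h => ?_
  exact Subtype.ext (h2 a a.2 b b.2 (A.mul_mem (A.inv_mem a.2) b.2) h)

/-- the dimension bound -/
theorem dim_bound (ρ : Representation F M V) {A I E : Subgroup M} [A.Normal]
    [IsMulCommutative I] (hAI : A ≤ I) (hIE : I ≤ E) (hEC : E ≤ centralizer (A : Set M))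
    (hcomm : ⁅E, E⁆ ≤ A) (hself : E ⊓ centralizer (I : Set M) ≤ I)
    (hsr : ∀ a ∈ A, ∀ v, ρ a v = v → a = 1 ∨ v = 0) :
    (centralizer (A : Set M)).index * I.relIndex E ≤ Module.finrank F V := by
  classical
  obtain ⟨σ, hσ⟩ := exists_closed ρ
  have : Nontrivial (TensorProduct F (AlgebraicClosure F) V) :=
    Module.nontrivial_of_finrank_pos (R := AlgebraicClosure F)
      (by rw [Module.finrank_baseChange]; exact Module.finrank_pos)
  obtain ⟨v, μ, hv, h1, h2⟩ := exists_weight σ (A := A) (I := I)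
    fun a ha h1 => hσ a fun v hv => (hsr a ha v hv).resolve_left h1
  have hinj : ∀ g u, σ g u = 0 → u = 0 := fun g u h => by
    have := congrArg (σ g⁻¹) h
    rwa [← Module.End.mul_apply, ← map_mul, inv_mul_cancel, map_one, map_zero] at this
  have hconj : ∀ x ∈ E, ∀ i ∈ I, i⁻¹ * (x⁻¹ * i * x) ∈ A := fun x hx i hi => by
    have : i⁻¹ * (x⁻¹ * i * x) = ⁅i⁻¹, x⁻¹⁆ := by rw [commutatorElement_def]; group
    rw [this]
    exact hcomm (commutator_mem_commutator (E.inv_mem (hIE hi)) (E.inv_mem hx))
  have hconj' : ∀ x ∈ E, ∀ i ∈ I, x⁻¹ * i * x ∈ I := fun x hx i hi =>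
    (Subgroup.mul_mem_cancel_left _ (I.inv_mem hi)).1 (hAI (hconj x hx i hi))
  have := Fintype.ofFinite (M ⧸ centralizer (A : Set M))
  have := Fintype.ofFinite (E ⧸ I.subgroupOf E)
  have hli : LinearIndependent (AlgebraicClosure F)
      fun t : (M ⧸ centralizer (A : Set M)) × (E ⧸ I.subgroupOf E) =>
        σ t.1.out (σ (t.2.out : E) v) := by
    rw [Fintype.linearIndependent_iff]
    intro g hg
    rw [Fintype.sum_prod_type] at hg
    have h3 := eq_zero_of_weights (fun a : A => σ a)
      (fun (q : M ⧸ centralizer (A : Set M)) (a : A) => μ (q.out⁻¹ * a * q.out)) (fun q q' h => by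
        rw [← q.out_eq, ← q'.out_eq]
        refine QuotientGroup.eq.2 ((inferInstance : (centralizer (A : Set M)).Normal).mem_comm ?_)
        rw [mem_centralizer_iff]
        intro a ha
        have h4 := ‹A.Normal›.conj_mem' a ha q.out
        have h5 := ‹A.Normal›.conj_mem' a ha q'.out
        have h6 := h2 _ (hAI h4) _ (hAI h5) (A.mul_mem (A.inv_mem h4) h5) (congrFun h ⟨a, ha⟩)
        calc a * (q'.out * q.out⁻¹) = q'.out * (q'.out⁻¹ * a * q'.out) * q.out⁻¹ := by group
          _ = q'.out * q.out⁻¹ * a := by rw [← h6]; group) _ _ (fun q a => by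
        have h4 := ‹A.Normal›.conj_mem' a a.2 q.out
        rw [map_sum, Finset.smul_sum]
        refine Finset.sum_congr rfl fun r _ => ?_
        rw [map_smul, smul_comm, ← map_smul (σ q.out), ← map_smul (σ (r.out : E)), ← h1 _ (hAI h4)]
        simp only [← Module.End.mul_apply, ← map_mul]
        rw [← mem_centralizer_iff.1 (hEC r.out.2) _ h4]
        congr 3
        group) hg
    rintro ⟨q, r⟩
    have h4 : ∑ r, g (q, r) • σ (r.out : E) v = 0 := by
      refine hinj q.out _ ?_
      rw [map_sum]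
      simpa only [map_smul] using h3 q (Finset.mem_univ _)
    have h5 := eq_zero_of_weights (fun i : I => σ i)
      (fun (r : E ⧸ I.subgroupOf E) (i : I) => μ ((r.out : M)⁻¹ * i * r.out)) (fun r r' h => by
        rw [← r.out_eq, ← r'.out_eq]
        refine QuotientGroup.eq.2 (mem_subgroupOf.2 ?_)
        have h6 : (r'.out : M) * (r.out : M)⁻¹ ∈ I := by
          refine hself ⟨E.mul_mem r'.out.2 (E.inv_mem r.out.2), mem_centralizer_iff.2 ?_⟩
          intro i hi
          have h6 := h2 _ (hconj' _ r.out.2 i hi) _ (hconj' _ r'.out.2 i hi) (by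
            have := A.mul_mem (A.inv_mem (hconj _ r.out.2 i hi)) (hconj _ r'.out.2 i hi)
            simpa [mul_assoc] using this) (congrFun h ⟨i, hi⟩)
          calc i * (r'.out * (r.out : M)⁻¹) =
              r'.out * ((r'.out : M)⁻¹ * i * r'.out) * (r.out : M)⁻¹ := by group
            _ = r'.out * (r.out : M)⁻¹ * i := by rw [← h6]; group
        simpa [mul_assoc] using hconj' _ r.out.2 _ h6) _ _ (fun r i => by
        rw [map_smul, smul_comm, ← map_smul (σ (r.out : E)), ← h1 _ (hconj' _ r.out.2 i i.2)]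
        simp only [← Module.End.mul_apply, ← map_mul]
        congr 3
        group) h4 r (Finset.mem_univ _)
    exact (smul_eq_zero.1 h5).resolve_right fun h => hv (hinj _ _ h)
  have h := hli.fintype_card_le_finrank
  rwa [Module.finrank_baseChange, Fintype.card_prod, ← Nat.card_eq_fintype_card,
    ← Nat.card_eq_fintype_card] at h

end Cfsg.Agent.KB
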